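import Cfsg.Agent.TwoGroups.Taussky

/-!
# The three shapes of 2-groups of maximal class, with a shifted exponent
-/

namespace Cfsg.Agent.TwoGroups

/-- Dihedral of order at least 8, semidihedral, or generalized quaternion. -/
def MaxClassShape (S : Type*) [Group S] : Prop :=
  (∃ k : ℕ, Nonempty (S ≃* DihedralGroup (2 ^ (k + 2)))) ∨
    (∃ k : ℕ, Nat.card S = 2 ^ (k + 4) ∧ ∃ a b : S, orderOf a = 2 ^ (k + 3) ∧ orderOf b = 2 ∧
      b * a * b⁻¹ = a ^ (2 ^ (k + 2) - 1)) ∨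
    (∃ k : ℕ, Nonempty (S ≃* QuaternionGroup (2 ^ (k + 1))))

theorem maxClassShape_of_index_commutator_eq_four {G : Type*} [Group G] [Finite G]
    (hG : IsPGroup 2 G) (h4 : (commutator G).index = 4) :
    Nat.card G = 4 ∨ MaxClassShape G := by
  rcases cases_of_index_commutator_eq_four hG h4 with h | ⟨n, hn, h | h | h⟩
  · exact Or.inl h
  · obtain ⟨k, rfl⟩ : ∃ k, n = k + 2 := ⟨n - 2, by omega⟩
    exact Or.inr (Or.inl ⟨k, h⟩)
  · obtain ⟨k, rfl⟩ : ∃ k, n = k + 2 := ⟨n - 2, by omega⟩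
    exact Or.inr (Or.inr (Or.inr ⟨k, h⟩))
  · obtain ⟨m, hm, hcard, x, y, hx, hy, hxy⟩ := h
    obtain ⟨k, rfl⟩ : ∃ k, m = k + 3 := ⟨m - 3, by omega⟩
    exact Or.inr (Or.inr (Or.inl ⟨k, hcard, x, y, hx, hy, hxy⟩))

end Cfsg.Agent.TwoGroups
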