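import Cfsg.Agent.TwoGroups.SectionalMetacyclic

/-!
# 2-groups of sectional rank four: normal nonabelian subgroups with small centre
-/

set_option autoImplicit false
set_option linter.all false

namespace Cfsg.Agent.TwoGroups

universe u

open scoped commutatorElement

theorem pRankLE_self {G : Type u} [Group G] {p k : ℕ} (h : Cfsg.SectionalPRankLE p k G) :
    Cfsg.PRankLE p k G := by
  intro A hA hpow
  haveI := hA
  have h1 := pRankLE_quotient h (⊥ : Subgroup G) (A.map (QuotientGroup.mk' ⊥))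
    (Subgroup.map_isMulCommutative A _) (by
      rintro _ ⟨a, ha, rfl⟩
      rw [← map_pow, hpow a ha, map_one])
  rwa [← Nat.card_congr (A.equivMapOfInjective (QuotientGroup.mk' ⊥) (fun x y e => by
    have h := QuotientGroup.eq.1 e
    rw [Subgroup.mem_bot] at h
    exact inv_mul_eq_one.1 h)).toEquiv] at h1

/-- A nonabelian subgroup whose centre is `{1, z}`. -/
structure CenterTwo {G : Type u} [Group G] (P : Subgroup G) (z : G) : Prop where
  mem : z ∈ P
  ne_one : z ≠ 1
  comm : ∀ y ∈ P, z * y = y * z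
  only : ∀ x ∈ P, (∀ y ∈ P, x * y = y * x) → x = 1 ∨ x = z
  na : ∃ x ∈ P, ∃ y ∈ P, x * y ≠ y * x

variable {G : Type u} [Group G]

theorem CenterTwo.of_card {P : Subgroup G} (hP : ¬ IsMulCommutative ↥P)
    (hZ : Nat.card ↥(Subgroup.center ↥P) = 2) :
    ∃ z, CenterTwo P z ∧ ∀ x, x ∈ (Subgroup.center ↥P).map P.subtype ↔ x = 1 ∨ x = z := by
  obtain ⟨⟨w, hw⟩, hwne, huniq⟩ := (Nat.card_eq_two_iff' (1 : Subgroup.center P)).1 hZ
  have hw1 : w ≠ 1 := fun e => hwne (Subtype.ext e)
  have honly : ∀ x ∈ Subgroup.center P, x = 1 ∨ x = w := fun x hx => by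
    by_cases h1 : x = 1
    · exact Or.inl h1
    · exact Or.inr (congrArg Subtype.val (huniq ⟨x, hx⟩ fun e => h1 (congrArg Subtype.val e)))
  refine ⟨w, ⟨w.2, fun e => hw1 (Subtype.ext e),
    fun y hy => (congrArg Subtype.val (Subgroup.mem_center_iff.1 hw ⟨y, hy⟩)).symm, fun x hx h => ?_, ?_⟩,
    fun x => ⟨?_, ?_⟩⟩
  · rcases honly ⟨x, hx⟩ (Subgroup.mem_center_iff.2 fun y => Subtype.ext (h y y.2).symm) with e | e
    · exact Or.inl (congrArg Subtype.val e)
    · exact Or.inr (congrArg Subtype.val e)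
  · by_contra hall
    push Not at hall
    exact hP ⟨⟨fun x y => Subtype.ext (hall x x.2 y y.2)⟩⟩
  · rintro ⟨y, hy, rfl⟩
    rcases honly y hy with e | e
    · exact Or.inl (by rw [e]; rfl)
    · exact Or.inr (by rw [e]; rfl)
  · rintro (rfl | rfl)
    · exact one_mem _
    · exact ⟨w, hw, rfl⟩

namespace CenterTwo

variable {P : Subgroup G} {z : G}

theorem sq (h : CenterTwo P z) : z * z = 1 := by
  rcases h.only (z * z) (mul_mem h.mem h.mem) (fun y hy => by
    rw [mul_assoc, h.comm y hy, ← mul_assoc, h.comm y hy, mul_assoc]) with e | e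
  · exact e
  · exact absurd (mul_eq_right.1 e) h.ne_one

theorem central (h : CenterTwo P z) [P.Normal] (g : G) : g * z = z * g := by
  have h1 : g * z * g⁻¹ = 1 ∨ g * z * g⁻¹ = z := by
    refine h.only _ (Subgroup.Normal.conj_mem inferInstance z h.mem g) fun y hy => ?_
    have hy' : g⁻¹ * y * g ∈ P := by
      have := Subgroup.Normal.conj_mem (inferInstance : P.Normal) y hy g⁻¹
      rwa [inv_inv] at this
    calc g * z * g⁻¹ * y = g * (z * (g⁻¹ * y * g)) * g⁻¹ := by group
      _ = g * ((g⁻¹ * y * g) * z) * g⁻¹ := by rw [h.comm _ hy']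
      _ = y * (g * z * g⁻¹) := by group
  rcases h1 with e | e
  · exact absurd (conj_eq_one_iff.1 e) h.ne_one
  · exact mul_inv_eq_iff_eq_mul.1 e

theorem restrict (h : CenterTwo P z) {T : Subgroup G} (hle : P ≤ T) :
    CenterTwo (P.subgroupOf T) (⟨z, hle h.mem⟩ : T) := by
  refine ⟨h.mem, fun e => h.ne_one (congrArg Subtype.val e), fun y hy => Subtype.ext (h.comm y hy),
    fun x hx hxc => ?_, ?_⟩
  · rcases h.only x hx (fun y hy => congrArg Subtype.val (hxc ⟨y, hle hy⟩ hy)) with e | e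
    · exact Or.inl (Subtype.ext e)
    · exact Or.inr (Subtype.ext e)
  · obtain ⟨x, hx, y, hy, hxy⟩ := h.na
    exact ⟨⟨x, hle hx⟩, hx, ⟨y, hle hy⟩, hy, fun e => hxy (congrArg Subtype.val e)⟩

theorem conj (h : CenterTwo P z) (g : G) :
    CenterTwo (P.map (MulAut.conj g).toMonoidHom) (g * z * g⁻¹) := by
  refine ⟨⟨z, h.mem, rfl⟩, fun e => h.ne_one (conj_eq_one_iff.1 e), ?_, ?_, ?_⟩
  · rintro _ ⟨y, hy, rfl⟩
    show g * z * g⁻¹ * (g * y * g⁻¹) = g * y * g⁻¹ * (g * z * g⁻¹)
    calc g * z * g⁻¹ * (g * y * g⁻¹) = g * (z * y) * g⁻¹ := by group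
      _ = g * (y * z) * g⁻¹ := by rw [h.comm y hy]
      _ = g * y * g⁻¹ * (g * z * g⁻¹) := by group
  · rintro _ ⟨x, hx, rfl⟩ hc
    rcases h.only x hx (fun y hy => by
      have := hc _ (Subgroup.mem_map_of_mem _ hy)
      rw [← map_mul, ← map_mul] at this
      exact (MulAut.conj g).injective this) with e | e
    · exact Or.inl (by rw [e, map_one])
    · exact Or.inr (by rw [e]; rfl)
  · obtain ⟨x, hx, y, hy, hxy⟩ := h.na
    refine ⟨_, Subgroup.mem_map_of_mem _ hx, _, Subgroup.mem_map_of_mem _ hy, fun e => hxy ?_⟩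
    rw [← map_mul, ← map_mul] at e
    exact (MulAut.conj g).injective e

theorem four_le_index_frattini [Finite G] (h : CenterTwo P z) (hG : IsPGroup 2 G) :
    4 ≤ (frattini ↥P).index := by
  haveI : Fact (Nat.Prime 2) := ⟨Nat.prime_two⟩
  by_contra hlt
  obtain ⟨k, hk⟩ := (hG.to_subgroup P).index (frattini ↥P)
  have hk1 : k ≤ 1 := by
    by_contra hk1
    exact hlt (hk ▸ le_trans (by norm_num) (Nat.pow_le_pow_right (by norm_num) (not_le.1 hk1)))
  haveI := Cfsg.Agent.PGroup.isCyclic_of_index_frattini_le (hG.to_subgroup P)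
    (hk ▸ (Nat.pow_le_pow_right two_pos hk1).trans (pow_one 2).le)
  obtain ⟨x, hx, y, hy, hxy⟩ := h.na
  letI := IsCyclic.commGroup (α := P)
  exact hxy (congrArg Subtype.val (mul_comm (⟨x, hx⟩ : P) ⟨y, hy⟩))

theorem mem_frattini [Finite G] (h : CenterTwo P z) (hG : IsPGroup 2 G) :
    z ∈ (frattini ↥P).map P.subtype := by
  haveI : Fact (Nat.Prime 2) := ⟨Nat.prime_two⟩
  have hne : commutator P ≠ ⊥ := by
    intro hb
    obtain ⟨x, hx, y, hy, hxy⟩ := h.na
    have := Subgroup.commutator_mem_commutator (Subgroup.mem_top (⟨x, hx⟩ : P))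
      (Subgroup.mem_top (⟨y, hy⟩ : P))
    rw [← commutator_def, hb, Subgroup.mem_bot, commutatorElement_eq_one_iff_mul_comm] at this
    exact hxy (congrArg Subtype.val this)
  obtain ⟨w, hw, hwc, hwo⟩ := exists_central_involution_of_normal (hG.to_subgroup P) _ hne
  refine ⟨w, Cfsg.Agent.PGroup.commutator_le_frattini (hG.to_subgroup P) hw, ?_⟩
  rcases h.only w w.2 (fun y hy => (congrArg Subtype.val (Subgroup.mem_center_iff.1 hwc ⟨y, hy⟩)).symm)
    with e | e
  · rw [show w = 1 from Subtype.ext e, orderOf_one] at hwo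
    omega
  · exact e

end CenterTwo

theorem sup_eq_range {P Q : Subgroup G} (hc : ∀ (p : P) (q : Q), Commute (p : G) (q : G)) :
    P ⊔ Q = (MonoidHom.noncommCoprod P.subtype Q.subtype hc).range := by
  apply le_antisymm
  · refine sup_le (fun x hx => ⟨(⟨x, hx⟩, 1), ?_⟩) (fun x hx => ⟨(1, ⟨x, hx⟩), ?_⟩)
    · exact mul_one x
    · exact one_mul x
  · rintro _ ⟨⟨p, q⟩, rfl⟩
    exact mul_mem (Subgroup.mem_sup_left p.2) (Subgroup.mem_sup_right q.2)

theorem coprod_injective {P Q : Subgroup G} (hc : ∀ (p : P) (q : Q), Commute (p : G) (q : G))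
    (hd : P ⊓ Q = ⊥) : Function.Injective (MonoidHom.noncommCoprod P.subtype Q.subtype hc) := by
  rw [← MonoidHom.ker_eq_bot_iff, Subgroup.eq_bot_iff_forall]
  rintro ⟨p, q⟩ h
  have h' : (p : G) * q = 1 := h
  have hpq : (p : G) ∈ P ⊓ Q := Subgroup.mem_inf.2 ⟨p.2, by rw [eq_inv_of_mul_eq_one_left h']; exact inv_mem q.2⟩
  rw [hd, Subgroup.mem_bot] at hpq
  rw [hpq, one_mul] at h'
  exact Prod.ext (Subtype.ext hpq) (Subtype.ext h')

theorem card_sup {P Q : Subgroup G} (hc : ∀ (p : P) (q : Q), Commute (p : G) (q : G))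
    (hd : P ⊓ Q = ⊥) : Nat.card (P ⊔ Q : Subgroup G) = Nat.card P * Nat.card Q := by
  rw [sup_eq_range hc, Nat.card_congr (MonoidHom.ofInjective (coprod_injective hc hd)).symm.toEquiv,
    Nat.card_prod]

theorem frattini_image_normal {P : Subgroup G} [P.Normal] [Finite G] (hG : IsPGroup 2 G) :
    ((frattini ↥P).map P.subtype).Normal := by
  haveI : Fact (Nat.Prime 2) := ⟨Nat.prime_two⟩
  refine ⟨?_⟩
  rintro _ ⟨x, hx, rfl⟩ g
  refine ⟨MulAut.conjNormal g x, ?_, MulAut.conjNormal_apply g x⟩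
  rw [← Cfsg.Agent.PGroup.map_frattini (hG.to_subgroup P)
    (MulAut.conjNormal g : MulAut P).toMonoidHom (MulAut.conjNormal g : MulAut P).surjective]
  exact Subgroup.mem_map_of_mem _ hx

/-- Two normal nonabelian subgroups with different centres of order two. -/
theorem pair_main [Finite G] (hG : IsPGroup 2 G) (hr : Cfsg.SectionalPRankLE 2 4 G)
    {P Q : Subgroup G} [P.Normal] [Q.Normal] {z w : G} (hP : CenterTwo P z) (hQ : CenterTwo Q w)
    (hzw : z ≠ w) :
    (∀ p ∈ P, ∀ q ∈ Q, p * q = q * p) ∧ P ⊓ Q = ⊥ ∧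
      ∀ y : G, (∀ p ∈ P, y * p = p * y) → (∀ q ∈ Q, y * q = q * y) → y ∈ P ⊔ Q := by
  haveI : Fact (Nat.Prime 2) := ⟨Nat.prime_two⟩
  have hd : P ⊓ Q = ⊥ := by
    by_contra hne
    haveI : (P ⊓ Q).Normal := inferInstance
    obtain ⟨v, hv, hvc, hvo⟩ := exists_central_involution_of_normal hG (P ⊓ Q) hne
    have hcv : ∀ y : G, v * y = y * v := fun y => (Subgroup.mem_center_iff.1 hvc y).symm
    rcases hP.only v hv.1 (fun y _ => hcv y) with e | e
    · rw [e, orderOf_one] at hvo; omega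
    · rcases hQ.only v hv.2 (fun y _ => hcv y) with e' | e'
      · rw [e', orderOf_one] at hvo; omega
      · exact hzw (e.symm.trans e')
  have hcomm : ∀ p ∈ P, ∀ q ∈ Q, p * q = q * p := fun p hp q hq => by
    have hm : ⁅p, q⁆ ∈ P ⊓ Q := by
      rw [commutatorElement_def]
      refine Subgroup.mem_inf.2 ⟨?_, mul_mem (Subgroup.Normal.conj_mem inferInstance q hq p) (inv_mem hq)⟩
      rw [mul_assoc (p * q), mul_assoc p, ← mul_assoc q]
      exact mul_mem hp (Subgroup.Normal.conj_mem inferInstance p⁻¹ (inv_mem hp) q)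
    rw [hd, Subgroup.mem_bot, commutatorElement_eq_one_iff_mul_comm] at hm
    exact hm
  refine ⟨hcomm, hd, ?_⟩
  have hc : ∀ (p : P) (q : Q), Commute (p : G) (q : G) := fun p q => hcomm p p.2 q q.2
  by_contra hall
  push Not at hall
  obtain ⟨y0, hy0P, hy0Q, hy0⟩ := hall
  classical
  have hex : ∃ k, y0 ^ (2 ^ k) ∈ P ⊔ Q := by
    obtain ⟨k, hk⟩ := IsPGroup.iff_orderOf.1 hG y0
    exact ⟨k, by rw [← hk, pow_orderOf_eq_one]; exact one_mem _⟩
  obtain ⟨j, hj⟩ : ∃ j, Nat.find hex = j + 1 := ⟨Nat.find hex - 1, by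
    have : Nat.find hex ≠ 0 := fun e => hy0 (by
      have := Nat.find_spec hex
      rwa [e, pow_zero, pow_one] at this)
    omega⟩
  set y := y0 ^ (2 ^ j) with hydef
  have hy : y ∉ P ⊔ Q := Nat.find_min hex (by omega)
  have hy2 : y * y ∈ P ⊔ Q := by
    have := Nat.find_spec hex
    rw [hj, pow_succ, pow_mul, pow_two] at this
    exact this
  have hyP : ∀ p ∈ P, Commute y p := fun p hp => Commute.pow_left (hy0P p hp) _
  have hyQ : ∀ q ∈ Q, Commute y q := fun q hq => Commute.pow_left (hy0Q q hq) _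
  set FP := (frattini ↥P).map P.subtype with hFP
  set FQ := (frattini ↥Q).map Q.subtype with hFQ
  haveI : FP.Normal := frattini_image_normal hG
  haveI : FQ.Normal := frattini_image_normal hG
  set N := FP ⊔ FQ with hN
  haveI : N.Normal := Subgroup.sup_normal FP FQ
  set K := P ⊔ Q ⊔ Subgroup.zpowers y with hK
  set π := QuotientGroup.mk' N
  have hy2N : y * y ∈ N := by
    rw [sup_eq_range hc] at hy2
    obtain ⟨⟨p, q⟩, hpq⟩ := hy2
    have hpq' : (p : G) * q = y * y := hpq
    have hpc : (p : G) = 1 ∨ (p : G) = z := by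
      refine hP.only p p.2 fun x hx => ?_
      have h1 : Commute (y * y) x := (hyP x hx).mul_left (hyP x hx)
      rw [← hpq'] at h1
      have h2 : Commute ((q : G))⁻¹ x := (show Commute (q : G) x from (hcomm x hx q q.2).symm).inv_left
      have := h1.mul_left h2
      rwa [mul_inv_cancel_right] at this
    have hqc : (q : G) = 1 ∨ (q : G) = w := by
      refine hQ.only q q.2 fun x hx => ?_
      have h1 : Commute (y * y) x := (hyQ x hx).mul_left (hyQ x hx)
      rw [← hpq'] at h1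
      have h2 : Commute ((p : G))⁻¹ x := (show Commute (p : G) x from hcomm p p.2 x hx).inv_left
      have := h2.mul_left h1
      rwa [inv_mul_cancel_left] at this
    rw [← hpq']
    refine mul_mem ?_ ?_
    · rcases hpc with e | e <;> rw [e]
      · exact one_mem _
      · exact Subgroup.mem_sup_left (hP.mem_frattini hG)
    · rcases hqc with e | e <;> rw [e]
      · exact one_mem _
      · exact Subgroup.mem_sup_right (hQ.mem_frattini hG)
  have hgenK : K = Subgroup.closure ((P : Set G) ∪ Q ∪ {y}) := by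
    rw [hK, Subgroup.closure_union, Subgroup.closure_union, Subgroup.closure_eq, Subgroup.closure_eq,
      Subgroup.zpowers_eq_closure]
  have hfrC : ∀ {R : Subgroup G} (a b : G), a ∈ R → b ∈ R → (frattini ↥R).map R.subtype ≤ N →
      π a * π b = π b * π a := by
    intro R a b ha hb hle
    rw [← commutatorElement_eq_one_iff_mul_comm, ← map_commutatorElement]
    refine (QuotientGroup.eq_one_iff _).2 (hle ⟨⁅(⟨a, ha⟩ : R), ⟨b, hb⟩⁆, ?_, ?_⟩)
    · exact Cfsg.Agent.PGroup.commutatorElement_mem_frattini (hG.to_subgroup R) _ _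
    · exact map_commutatorElement R.subtype _ _
  have hfrS : ∀ {R : Subgroup G} (a : G), a ∈ R → (frattini ↥R).map R.subtype ≤ N → π a * π a = 1 := by
    intro R a ha hle
    rw [← map_mul, ← pow_two]
    exact (QuotientGroup.eq_one_iff _).2 (hle
      ⟨(⟨a, ha⟩ : R) ^ 2, Cfsg.Agent.PGroup.pow_mem_frattini (hG.to_subgroup R) _, by simp⟩)
  have hAc : IsMulCommutative (Subgroup.closure (π '' ((P : Set G) ∪ Q ∪ {y}))) := by
    refine Subgroup.isMulCommutative_closure ?_
    rintro _ ⟨a, ha, rfl⟩ _ ⟨b, hb, rfl⟩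
    simp only [Set.mem_union, SetLike.mem_coe, Set.mem_singleton_iff] at ha hb
    rcases ha with (ha | ha) | ha <;> rcases hb with (hb | hb) | hb
    · exact hfrC a b ha hb le_sup_left
    · rw [← map_mul, ← map_mul, hcomm a ha b hb]
    · rw [← map_mul, ← map_mul, hb, (hyP a ha).eq]
    · rw [← map_mul, ← map_mul, hcomm b hb a ha]
    · exact hfrC a b ha hb le_sup_right
    · rw [← map_mul, ← map_mul, hb, (hyQ a ha).eq]
    · rw [← map_mul, ← map_mul, ha, (hyP b hb).eq]
    · rw [← map_mul, ← map_mul, ha, (hyQ b hb).eq]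
    · rw [ha, hb]
  have hA : K.map π = Subgroup.closure (π '' ((P : Set G) ∪ Q ∪ {y})) := by
    rw [hgenK, MonoidHom.map_closure]
  have hle := pRankLE_quotient hr N (K.map π) (hA ▸ hAc) (by
    intro a ha
    rw [hA] at ha
    induction ha using Subgroup.closure_induction with
    | mem x hx =>
      obtain ⟨a, ha, rfl⟩ := hx
      simp only [Set.mem_union, SetLike.mem_coe, Set.mem_singleton_iff] at ha
      rw [pow_two]
      rcases ha with (ha | ha) | ha
      · exact hfrS a ha le_sup_left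
      · exact hfrS a ha le_sup_right
      · rw [← map_mul, ha]; exact (QuotientGroup.eq_one_iff _).2 hy2N
    | one => exact one_pow 2
    | mul a b hxa hxb h1 h2 =>
      rw [(show Commute a b from congrArg Subtype.val
        (hAc.is_comm.comm ⟨a, hxa⟩ ⟨b, hxb⟩)).mul_pow, h1, h2, one_mul]
    | inv a _ h1 => rw [inv_pow, h1, inv_one])
  -- counting
  have hKcard : 2 * Nat.card (P ⊔ Q : Subgroup G) ≤ Nat.card K := by
    obtain ⟨t, ht⟩ := Subgroup.card_dvd_of_le (le_sup_left : P ⊔ Q ≤ K)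
    rw [ht, mul_comm 2]
    refine Nat.mul_le_mul_left _ ?_
    by_contra ht2
    have ht0 : t ≠ 0 := fun e => by
      rw [e, mul_zero] at ht
      exact (Nat.card_pos (α := K)).ne' ht
    have : t = 1 := by omega
    rw [this, mul_one] at ht
    exact hy (Subgroup.eq_of_le_of_card_ge le_sup_left ht.le ▸
      Subgroup.mem_sup_right (Subgroup.mem_zpowers y))
  let g : K →* G ⧸ N := π.comp K.subtype
  have hgr : g.range = K.map π := by
    rw [MonoidHom.range_comp, Subgroup.range_subtype]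
  have h2 := Subgroup.card_eq_card_quotient_mul_card_subgroup g.ker
  rw [Nat.card_congr (QuotientGroup.quotientKerEquivRange g).toEquiv, hgr] at h2
  have hker : Nat.card g.ker ≤ Nat.card N :=
    Nat.card_le_card_of_injective (fun x => (⟨((x : K) : G), (QuotientGroup.eq_one_iff _).1 x.2⟩ : N))
      fun a b e => Subtype.ext (Subtype.ext (Subtype.mk.inj e))
  have hNc : Nat.card N = Nat.card FP * Nat.card FQ :=
    card_sup (fun p q => hcomm p (Subgroup.map_subtype_le _ p.2) q (Subgroup.map_subtype_le _ q.2))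
      (eq_bot_iff.2 ((inf_le_inf (Subgroup.map_subtype_le _) (Subgroup.map_subtype_le _)).trans hd.le))
  have hFPc : Nat.card FP * (frattini ↥P).index = Nat.card P := by
    rw [hFP, Subgroup.card_map_of_injective P.subtype_injective]
    exact Subgroup.card_mul_index _
  have hFQc : Nat.card FQ * (frattini ↥Q).index = Nat.card Q := by
    rw [hFQ, Subgroup.card_map_of_injective Q.subtype_injective]
    exact Subgroup.card_mul_index _
  rw [card_sup hc hd, ← hFPc, ← hFQc] at hKcard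
  have h16 : 4 * 4 ≤ (frattini ↥P).index * (frattini ↥Q).index :=
    Nat.mul_le_mul (hP.four_le_index_frattini hG) (hQ.four_le_index_frattini hG)
  have hup : Nat.card K ≤ 16 * (Nat.card FP * Nat.card FQ) := by
    rw [h2, ← hNc]
    exact Nat.mul_le_mul (hle.trans (by norm_num)) hker
  have hlow : 32 * (Nat.card FP * Nat.card FQ) ≤ Nat.card K := by
    refine le_trans ?_ hKcard
    calc 32 * (Nat.card FP * Nat.card FQ) = 2 * (Nat.card FP * Nat.card FQ) * (4 * 4) := by ring
      _ ≤ 2 * (Nat.card FP * Nat.card FQ) * ((frattini ↥P).index * (frattini ↥Q).index) :=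
          Nat.mul_le_mul_left _ h16
      _ = _ := by ring
  have hpos : 0 < Nat.card FP * Nat.card FQ := Nat.mul_pos Nat.card_pos Nat.card_pos
  omega

/-- The same inside a subgroup normalising both. -/
theorem pair_in [Finite G] (hG : IsPGroup 2 G) (hr : Cfsg.SectionalPRankLE 2 4 G)
    {T P Q : Subgroup G} {z w : G} (hP : CenterTwo P z) (hQ : CenterTwo Q w) (hzw : z ≠ w)
    (hPT : P ≤ T) (hQT : Q ≤ T) (hPn : ∀ t ∈ T, ∀ x ∈ P, t * x * t⁻¹ ∈ P)
    (hQn : ∀ t ∈ T, ∀ x ∈ Q, t * x * t⁻¹ ∈ Q) :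
    (∀ p ∈ P, ∀ q ∈ Q, p * q = q * p) ∧ P ⊓ Q = ⊥ ∧
      ∀ y ∈ T, (∀ p ∈ P, y * p = p * y) → (∀ q ∈ Q, y * q = q * y) → y ∈ P ⊔ Q := by
  haveI : (P.subgroupOf T).Normal := ⟨fun x hx t => hPn t t.2 x hx⟩
  haveI : (Q.subgroupOf T).Normal := ⟨fun x hx t => hQn t t.2 x hx⟩
  obtain ⟨h1, h2, h3⟩ := pair_main (hG.to_subgroup T)
    (sectional_of_injective T.subtype T.subtype_injective hr) (hP.restrict hPT) (hQ.restrict hQT)
    (fun e => hzw (congrArg Subtype.val e))
  refine ⟨fun p hp q hq => congrArg Subtype.val (h1 ⟨p, hPT hp⟩ hp ⟨q, hQT hq⟩ hq), ?_, ?_⟩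
  · rw [eq_bot_iff]
    intro x hx
    have hx' : (⟨x, hPT hx.1⟩ : T) ∈ P.subgroupOf T ⊓ Q.subgroupOf T := ⟨hx.1, hx.2⟩
    rw [h2, Subgroup.mem_bot] at hx'
    exact congrArg Subtype.val hx'
  · intro y hy hyP hyQ
    have := h3 ⟨y, hy⟩ (fun p hp => Subtype.ext (hyP p hp)) (fun q hq => Subtype.ext (hyQ q hq))
    rw [← Subgroup.subgroupOf_sup hPT hQT] at this
    exact this

/-- A commuting disjoint nonabelian partner forces sectional rank two. -/
theorem sectional_two_of_partner [Finite G] (hG : IsPGroup 2 G)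
    (hr : Cfsg.SectionalPRankLE 2 4 G) {P Q : Subgroup G} {w : G} (hQ : CenterTwo Q w)
    (hcomm : ∀ p ∈ P, ∀ q ∈ Q, p * q = q * p) (hd : P ⊓ Q = ⊥) :
    Cfsg.SectionalPRankLE 2 2 ↥P := by
  haveI : Fact (Nat.Prime 2) := ⟨Nat.prime_two⟩
  have hc : ∀ (p : P) (q : Q), Commute (p : G) (q : G) := fun p q => hcomm p p.2 q q.2
  have hr' := sectional_of_injective _ (coprod_injective hc hd) hr
  intro H N _ A hA hpow
  let e : ↥H × Q →* P × Q := MonoidHom.prodMap H.subtype (MonoidHom.id Q)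
  have he : Function.Injective e := fun a b h => by
    simp only [e, MonoidHom.coe_prodMap, Prod.map, Prod.mk.injEq] at h
    exact Prod.ext (Subtype.ext h.1) h.2
  let g : ↥H × Q →* (↥H ⧸ N) × (Q ⧸ frattini ↥Q) :=
    MonoidHom.prodMap (QuotientGroup.mk' N) (QuotientGroup.mk' (frattini ↥Q))
  have hg : Function.Surjective g := by
    rintro ⟨a, b⟩
    obtain ⟨a, rfl⟩ := QuotientGroup.mk'_surjective N a
    obtain ⟨b, rfl⟩ := QuotientGroup.mk'_surjective _ b
    exact ⟨(a, b), rfl⟩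
  have h1 := pRankLE_self (sectional_of_surjective g hg (sectional_of_injective e he hr'))
  have hQc : ∀ a b : Q ⧸ frattini ↥Q, a * b = b * a := by
    intro a b
    obtain ⟨a, rfl⟩ := QuotientGroup.mk'_surjective _ a
    obtain ⟨b, rfl⟩ := QuotientGroup.mk'_surjective _ b
    rw [← commutatorElement_eq_one_iff_mul_comm, ← map_commutatorElement]
    exact (QuotientGroup.eq_one_iff _).2
      (Cfsg.Agent.PGroup.commutatorElement_mem_frattini (hG.to_subgroup Q) _ _)
  have h2 := h1 (A.prod ⊤) ⟨⟨fun a b => Subtype.ext (Prod.ext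
      (congrArg Subtype.val (hA.is_comm.comm ⟨_, a.2.1⟩ ⟨_, b.2.1⟩)) (hQc _ _))⟩⟩ (by
    rintro ⟨a, b⟩ ⟨ha, -⟩
    refine Prod.ext (hpow a ha) ?_
    obtain ⟨b, rfl⟩ := QuotientGroup.mk'_surjective _ b
    show (QuotientGroup.mk' (frattini ↥Q) b) ^ 2 = 1
    rw [← map_pow]
    exact (QuotientGroup.eq_one_iff _).2 (Cfsg.Agent.PGroup.pow_mem_frattini (hG.to_subgroup Q) _))
  rw [Nat.card_congr (A.prodEquiv ⊤).toEquiv, Nat.card_prod, Subgroup.card_top,
    ← Subgroup.index_eq_card] at h2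
  have h4 := hQ.four_le_index_frattini hG
  have : Nat.card A * 4 ≤ Nat.card A * (frattini ↥Q).index := Nat.mul_le_mul_left _ h4
  norm_num at h2 ⊢
  omega

/-- A centralised nonabelian subgroup inside the product of two others is impossible. -/
theorem comm_of_centralizes {P Q : Subgroup G} {z w : G} (hP : CenterTwo P z) (hQ : CenterTwo Q w)
    (hcomm : ∀ p ∈ P, ∀ q ∈ Q, p * q = q * p) {r : G} (hr : r ∈ P ⊔ Q)
    (hrP : ∀ p ∈ P, r * p = p * r) (hrQ : ∀ q ∈ Q, r * q = q * r) :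
    r = 1 ∨ r = z ∨ r = w ∨ r = z * w := by
  have hc : ∀ (p : P) (q : Q), Commute (p : G) (q : G) := fun p q => hcomm p p.2 q q.2
  rw [sup_eq_range hc] at hr
  obtain ⟨⟨p, q⟩, hpq⟩ := hr
  have hpq' : (p : G) * q = r := hpq
  have hp : (p : G) = 1 ∨ (p : G) = z := by
    refine hP.only p p.2 fun x hx => ?_
    have h1 : Commute r x := hrP x hx
    rw [← hpq'] at h1
    have h2 : Commute ((q : G))⁻¹ x := (show Commute (q : G) x from (hcomm x hx q q.2).symm).inv_left
    have := h1.mul_left h2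
    rwa [mul_inv_cancel_right] at this
  have hq : (q : G) = 1 ∨ (q : G) = w := by
    refine hQ.only q q.2 fun x hx => ?_
    have h1 : Commute r x := hrQ x hx
    rw [← hpq'] at h1
    have h2 : Commute ((p : G))⁻¹ x := (show Commute (p : G) x from hcomm p p.2 x hx).inv_left
    have := h2.mul_left h1
    rwa [inv_mul_cancel_left] at this
  rcases hp with e | e <;> rcases hq with e' | e' <;> rw [← hpq', e, e'] <;> simp

/-- Index two of the centralizer of the centre. -/
theorem index_centralizer_main [Finite G] (hG : IsPGroup 2 G) (hr : Cfsg.SectionalPRankLE 2 4 G)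
    {P : Subgroup G} {z : G} (hP : CenterTwo P z)
    (hn : ∀ s : G, s * z = z * s → ∀ x ∈ P, s * x * s⁻¹ ∈ P)
    (hne : Subgroup.centralizer ({z} : Set G) ≠ ⊤) :
    Cfsg.SectionalPRankLE 2 2 ↥P ∧ (Subgroup.centralizer ({z} : Set G)).index = 2 := by
  haveI : Fact (Nat.Prime 2) := ⟨Nat.prime_two⟩
  set S0 := Subgroup.centralizer ({z} : Set G) with hS0
  have hS0i : ∀ s, s ∈ S0 ↔ s * z = z * s := fun s => Subgroup.mem_centralizer_singleton_iff
  have hPS : P ≤ S0 := fun x hx => (hS0i x).2 (hP.comm x hx).symm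
  set N1 := Subgroup.normalizer (S0 : Set G) with hN1
  haveI : Group.IsNilpotent G := hG.isNilpotent
  have hlt : S0 < N1 := normalizerCondition_of_isNilpotent S0 (lt_top_iff_ne_top.2 hne)
  obtain ⟨g, hg1, hg0⟩ := SetLike.exists_of_lt hlt
  have hnormS : ∀ {x : G}, x ∈ N1 → ∀ {s : G}, s ∈ S0 → x⁻¹ * s * x ∈ S0 := fun {x} hx {s} hs => by
    have := (Subgroup.mem_normalizer_iff.1 (inv_mem hx) s).1 hs
    rwa [inv_inv] at this
  -- conjugates of `P` by the normalizer
  have hfix : ∀ x y : G, x * z * x⁻¹ = y * z * y⁻¹ ↔ y⁻¹ * x ∈ S0 := fun x y => by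
    rw [hS0i]
    constructor
    · intro h
      calc y⁻¹ * x * z = y⁻¹ * (x * z * x⁻¹) * x := by group
        _ = y⁻¹ * (y * z * y⁻¹) * x := by rw [h]
        _ = z * (y⁻¹ * x) := by group
    · intro h
      calc x * z * x⁻¹ = y * (y⁻¹ * x * z) * x⁻¹ := by group
        _ = y * (z * (y⁻¹ * x)) * x⁻¹ := by rw [h]
        _ = y * z * y⁻¹ := by group
  have hconjle : ∀ x ∈ N1, P.map (MulAut.conj x).toMonoidHom ≤ S0 := by
    rintro x hx _ ⟨p, hp, rfl⟩
    exact (Subgroup.mem_normalizer_iff.1 hx p).1 (hPS hp)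
  have hconjn : ∀ x ∈ N1, ∀ t ∈ S0, ∀ y ∈ P.map (MulAut.conj x).toMonoidHom,
      t * y * t⁻¹ ∈ P.map (MulAut.conj x).toMonoidHom := by
    rintro x hx t ht _ ⟨p, hp, rfl⟩
    refine ⟨(x⁻¹ * t * x) * p * (x⁻¹ * t * x)⁻¹, hn _ ((hS0i _).1 (hnormS hx ht)) p hp, ?_⟩
    show x * _ * x⁻¹ = t * (x * p * x⁻¹) * t⁻¹
    group
  have hpair : ∀ x ∈ N1, ∀ y ∈ N1, y⁻¹ * x ∉ S0 →
      (∀ p ∈ P.map (MulAut.conj x).toMonoidHom, ∀ q ∈ P.map (MulAut.conj y).toMonoidHom, p * q = q * p) ∧
      P.map (MulAut.conj x).toMonoidHom ⊓ P.map (MulAut.conj y).toMonoidHom = ⊥ ∧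
      ∀ r ∈ S0, (∀ p ∈ P.map (MulAut.conj x).toMonoidHom, r * p = p * r) →
        (∀ q ∈ P.map (MulAut.conj y).toMonoidHom, r * q = q * r) →
        r ∈ P.map (MulAut.conj x).toMonoidHom ⊔ P.map (MulAut.conj y).toMonoidHom :=
    fun x hx y hy hxy => pair_in hG hr (hP.conj x) (hP.conj y) (fun e => hxy ((hfix x y).1 e))
      (hconjle x hx) (hconjle y hy) (hconjn x hx) (hconjn y hy)
  have hmap1 : P.map (MulAut.conj (1 : G)).toMonoidHom = P := by
    rw [map_one]; exact P.map_id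
  set Q := P.map (MulAut.conj g).toMonoidHom with hQdef
  set w := g * z * g⁻¹ with hw
  have hQ : CenterTwo Q w := hP.conj g
  have hzw : z ≠ w := fun e => hg0 ((hS0i g).2 (mul_inv_eq_iff_eq_mul.1 e.symm))
  obtain ⟨hcomm, hd, hcen⟩ := pair_in hG hr hP hQ hzw hPS (hconjle g hg1)
    (fun t ht => hn t ((hS0i t).1 ht)) (hconjn g hg1)
  refine ⟨sectional_two_of_partner hG hr hQ hcomm hd, ?_⟩
  -- at most two cosets in the normalizer
  have htwo : ∀ x ∈ N1, x ∉ S0 → g⁻¹ * x ∈ S0 := by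
    intro x hx hx0
    by_contra hgx
    set R := P.map (MulAut.conj x).toMonoidHom
    obtain ⟨hRP, -, -⟩ := hpair x hx 1 (one_mem _) (by rwa [inv_one, one_mul])
    obtain ⟨hRQ, -, -⟩ := hpair x hx g hg1 hgx
    rw [hmap1] at hRP
    have hR := hP.conj x
    obtain ⟨r, hr1, r', hr', hne'⟩ := hR.na
    have key : ∀ r ∈ R, r = 1 ∨ r = z ∨ r = w ∨ r = z * w := fun r hr =>
      comm_of_centralizes hP hQ hcomm
        (hcen r (hconjle x hx hr) (fun p hp => hRP r hr p hp) (fun q hq => hRQ r hr q hq))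
        (fun p hp => hRP r hr p hp) (fun q hq => hRQ r hr q hq)
    have hall : ∀ r : G, (r = 1 ∨ r = z ∨ r = w ∨ r = z * w) → r ∈ P ⊔ Q := by
      rintro r (rfl | rfl | rfl | rfl)
      · exact one_mem _
      · exact Subgroup.mem_sup_left hP.mem
      · exact Subgroup.mem_sup_right hQ.mem
      · exact mul_mem (Subgroup.mem_sup_left hP.mem) (Subgroup.mem_sup_right hQ.mem)
    apply hne'
    have h1 : ∀ p ∈ P, Commute r p := fun p hp => hRP r hr1 p hp
    have h2 : ∀ q ∈ Q, Commute r q := fun q hq => hRQ r hr1 q hq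
    have hc : ∀ (p : P) (q : Q), Commute (p : G) (q : G) := fun p q => hcomm p p.2 q q.2
    have hmem := hall r' (key r' hr')
    rw [sup_eq_range hc] at hmem
    obtain ⟨⟨p, q⟩, hpq⟩ := hmem
    have hpq' : (p : G) * q = r' := hpq
    rw [← hpq']
    exact ((h1 p p.2).mul_right (h2 q q.2)).eq
  have hN1top : N1 = ⊤ := by
    by_contra hne1
    obtain ⟨h, hh1, hh0⟩ := SetLike.exists_of_lt
      (normalizerCondition_of_isNilpotent N1 (lt_top_iff_ne_top.2 hne1))
    have hw2 : w * w = 1 := hQ.sq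
    set c := z * w with hc
    have hzwc : z * w = w * z := hcomm z hP.mem w hQ.mem
    -- action of the normalizer on the two involutions
    have hact : ∀ x ∈ N1, (x ∈ S0 → x * z * x⁻¹ = z ∧ x * w * x⁻¹ = w) ∧
        (x ∉ S0 → x * z * x⁻¹ = w ∧ x * w * x⁻¹ = z) := by
      intro x hx
      refine ⟨fun hx0 => ⟨mul_inv_eq_iff_eq_mul.2 ((hS0i x).1 hx0), ?_⟩, fun hx0 => ⟨?_, ?_⟩⟩
      · rw [hw, show x * (g * z * g⁻¹) * x⁻¹ = (x * g) * z * (x * g)⁻¹ by group, hfix,
          ← mul_assoc]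
        exact hnormS hg1 hx0
      · rw [hw, hfix]; exact htwo x hx hx0
      · rw [hw, show x * (g * z * g⁻¹) * x⁻¹ = (x * g) * z * (x * g)⁻¹ by group,
          show z = (1 : G) * z * (1 : G)⁻¹ by group]
        rw [show (x * g) * ((1 : G) * z * (1 : G)⁻¹) * (x * g)⁻¹ = (x * g) * z * (x * g)⁻¹ by group]
        rw [hfix, inv_one, one_mul]
        by_contra hxg
        have h3 := htwo (x * g) (mul_mem hx hg1) hxg
        have h4 : x * g * g⁻¹ ∈ S0 := by
          have h5 := (Subgroup.mem_normalizer_iff.1 hg1 _).1 h3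
          rwa [show g * (g⁻¹ * (x * g)) * g⁻¹ = x * g * g⁻¹ by group] at h5
        rw [mul_inv_cancel_right] at h4
        exact hx0 h4
    have hccen : ∀ x ∈ N1, x * c * x⁻¹ = c := by
      intro x hx
      rw [hc, show x * (z * w) * x⁻¹ = (x * z * x⁻¹) * (x * w * x⁻¹) by group]
      by_cases hx0 : x ∈ S0
      · rw [((hact x hx).1 hx0).1, ((hact x hx).1 hx0).2]
      · rw [((hact x hx).2 hx0).1, ((hact x hx).2 hx0).2, hzwc]
    have hS0le : S0 ≤ N1 := Subgroup.le_normalizer
    have hwS0 : w ∈ S0 := (hS0i w).2 hzwc.symm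
    have hzS0 : z ∈ S0 := hPS hP.mem
    have honly : ∀ v ∈ N1, (∀ x ∈ N1, x * v = v * x) → v = 1 ∨ v = c := by
      intro v hv hvc
      have hv0 : v ∈ S0 := (hS0i v).2 ((hvc z (hS0le hzS0)).symm)
      have hPv : ∀ p ∈ P, v * p = p * v := fun p hp => (hvc p (hS0le (hPS hp))).symm
      have hQv : ∀ q ∈ Q, v * q = q * v := fun q hq => (hvc q (hS0le (hconjle g hg1 hq))).symm
      rcases comm_of_centralizes hP hQ hcomm (hcen v hv0 hPv hQv) hPv hQv with e | e | e | e
      · exact Or.inl e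
      · exfalso
        have := ((hact g hg1).2 hg0).1
        rw [← e, hvc g hg1, mul_inv_cancel_right] at this
        exact hzw (e ▸ this)
      · exfalso
        have := ((hact g hg1).2 hg0).2
        rw [← e, hvc g hg1, mul_inv_cancel_right] at this
        exact hzw ((e ▸ this).symm)
      · exact Or.inr e
    have hc1 : c ≠ 1 := fun e => hzw (by
      rw [hc, mul_eq_one_iff_eq_inv] at e
      rw [e, inv_eq_of_mul_eq_one_right hw2])
    have hcS0 : c ∈ S0 := mul_mem hzS0 hwS0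
    have hhN : ∀ x ∈ N1, h⁻¹ * x * h ∈ N1 := fun x hx => by
      have := (Subgroup.mem_normalizer_iff.1 (inv_mem hh1) x).1 hx
      rwa [inv_inv] at this
    have hhc : h * c * h⁻¹ = c := by
      rcases honly (h * c * h⁻¹) ((Subgroup.mem_normalizer_iff.1 hh1 c).1 (hS0le hcS0)) (fun x hx => by
        have hx1 : (h⁻¹ * x * h) * c = c * (h⁻¹ * x * h) :=
          mul_inv_eq_iff_eq_mul.1 (hccen _ (hhN x hx))
        calc x * (h * c * h⁻¹) = h * ((h⁻¹ * x * h) * c) * h⁻¹ := by group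
          _ = h * (c * (h⁻¹ * x * h)) * h⁻¹ := by rw [hx1]
          _ = h * c * h⁻¹ * x := by group) with e | e
      · exact absurd (conj_eq_one_iff.1 e) hc1
      · exact e
    set a := h * z * h⁻¹ with ha
    set a' := h * w * h⁻¹ with ha'
    have haN : a ∈ N1 := (Subgroup.mem_normalizer_iff.1 hh1 z).1 (hS0le hzS0)
    have haa : a * a' = c := by
      rw [ha, ha', show h * z * h⁻¹ * (h * w * h⁻¹) = h * (z * w) * h⁻¹ by group]
      exact hhc
    have horb : ∀ x ∈ N1, x * a * x⁻¹ = a ∨ x * a * x⁻¹ = a' := by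
      intro x hx
      have e : x * a * x⁻¹ = h * ((h⁻¹ * x * h) * z * (h⁻¹ * x * h)⁻¹) * h⁻¹ := by rw [ha]; group
      by_cases hx0 : h⁻¹ * x * h ∈ S0
      · left; rw [e, ((hact _ (hhN x hx)).1 hx0).1]
      · right; rw [e, ((hact _ (hhN x hx)).2 hx0).1]
    by_cases ha0 : a ∈ S0
    · have haP : ∀ (R : Subgroup G), c ∉ R → R ≤ N1 → (∀ p ∈ R, a * p * a⁻¹ ∈ R) →
          ∀ p ∈ R, a * p = p * a := by
        intro R hcR hRN haR p hp
        rcases horb p (hRN hp) with e | e
        · exact (mul_inv_eq_iff_eq_mul.1 e).symm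
        · exfalso
          have h1 : p * a * p⁻¹ * a⁻¹ ∈ R := by
            rw [show p * a * p⁻¹ * a⁻¹ = p * (a * p⁻¹ * a⁻¹) by group]
            exact mul_mem hp (haR _ (inv_mem hp))
          have hza : a * a = 1 := by
            rw [ha, show h * z * h⁻¹ * (h * z * h⁻¹) = h * (z * z) * h⁻¹ by group, hP.sq, mul_one,
              mul_inv_cancel]
          rw [e, inv_eq_of_mul_eq_one_right hza, show a' * a = a * (a * a') * a by
            rw [← mul_assoc a a a', hza, one_mul], haa,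
            ← inv_eq_of_mul_eq_one_right hza] at h1
          nth_rw 1 [inv_eq_of_mul_eq_one_right hza] at h1
          rw [hccen a haN] at h1
          exact hcR h1
      have hcP : c ∉ P := fun hcP => hQ.ne_one (by
        have : w ∈ P ⊓ Q := ⟨by
          have := mul_mem (inv_mem hP.mem) hcP
          rwa [hc, inv_mul_cancel_left] at this, hQ.mem⟩
        rwa [hd, Subgroup.mem_bot] at this)
      have hcQ : c ∉ Q := fun hcQ => hP.ne_one (by
        have : z ∈ P ⊓ Q := ⟨hP.mem, by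
          have := mul_mem hcQ (inv_mem hQ.mem)
          rwa [hc, mul_inv_cancel_right] at this⟩
        rwa [hd, Subgroup.mem_bot] at this)
      have hPa := haP P hcP (hPS.trans hS0le) (fun p hp => hn a ((hS0i a).1 ha0) p hp)
      have hQa := haP Q hcQ ((hconjle g hg1).trans hS0le) (fun q hq => hconjn g hg1 a ha0 q hq)
      rcases comm_of_centralizes hP hQ hcomm (hcen a ha0 hPa hQa) hPa hQa with e | e | e | e
      · exact hP.ne_one (conj_eq_one_iff.1 e)
      · exact hh0 (hS0le ((hS0i h).2 (mul_inv_eq_iff_eq_mul.1 e)))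
      · refine hh0 ?_
        have h3 := (hfix h g).1 e
        have h4 := mul_mem hg1 (hS0le h3)
        rwa [mul_inv_cancel_left] at h4
      · have h5 : h * z * h⁻¹ = h * c * h⁻¹ := by rw [hhc]; exact e
        have h6 : z = c := mul_left_cancel (mul_right_cancel h5)
        exact hQ.ne_one (left_eq_mul.1 h6)
    · have hswap : ∀ p ∈ P, a * p * a⁻¹ ∈ Q := fun p hp => by
        have hs := htwo a haN ha0
        refine ⟨(g⁻¹ * a) * p * (g⁻¹ * a)⁻¹, hn _ ((hS0i _).1 hs) p hp, ?_⟩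
        show g * _ * g⁻¹ = _
        group
      have hfree : ∀ p ∈ P, p * a = a * p → p = 1 := fun p hp e => by
        have h1 : p ∈ P ⊓ Q := ⟨hp, by
          have := hswap p hp
          rwa [← e, mul_inv_cancel_right] at this⟩
        rwa [hd, Subgroup.mem_bot] at h1
      have hsame : ∀ p ∈ P, p ≠ 1 → p * a * p⁻¹ = a' := fun p hp hp1 => by
        rcases horb p (hS0le (hPS hp)) with e | e
        · exact absurd (hfree p hp (mul_inv_eq_iff_eq_mul.1 e)) hp1
        · exact e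
      obtain ⟨p, hp, q, hq, hpq⟩ := hP.na
      have hp1 : p ≠ 1 := fun e => hpq (by rw [e, one_mul, mul_one])
      have hq1 : q ≠ 1 := fun e => hpq (by rw [e, one_mul, mul_one])
      have h7 := (hsame p hp hp1).trans (hsame q hq hq1).symm
      have h8 : (q⁻¹ * p) * a = a * (q⁻¹ * p) := by
        calc q⁻¹ * p * a = q⁻¹ * (p * a * p⁻¹) * p := by group
          _ = q⁻¹ * (q * a * q⁻¹) * p := by rw [h7]
          _ = a * (q⁻¹ * p) := by group
      have h9 := hfree _ (mul_mem (inv_mem hq) hp) h8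
      rw [inv_mul_eq_one] at h9
      exact hpq (by rw [h9])
  rw [Subgroup.index_eq_two_iff']
  refine ⟨g⁻¹, fun b => ?_⟩
  rw [xor_iff_iff_not]
  refine ⟨fun h1 h2 => hg0 ?_, fun h2 => htwo b (hN1top ▸ Subgroup.mem_top b) h2⟩
  have := mul_mem h2 (inv_mem h1)
  rwa [mul_inv_rev, inv_inv, mul_inv_cancel_left] at this

end Cfsg.Agent.TwoGroups
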