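import Cfsg.Agent.TwoGroups.WreathEightBasic
import Cfsg.Agent.TwoGroups.SectionalFour

/-!
# 2-groups of sectional rank four containing the wreath product of dihedral eight by two
-/

set_option autoImplicit false
set_option linter.all false

namespace Cfsg.Agent.TwoGroups.W8

universe u

theorem zt_comm : ∀ p : D, ZT p → ∀ q, p * q = q * p := by decide +kernel

theorem zt_of_comm : ∀ m : D, m * R = R * m → m * B = B * m → ZT m := by decide +kernel

theorem zt_mul : ∀ p q : D, ZT p → ZT q → ZT (p * q) := by decide +kernel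

theorem zt_inv : ∀ p : D, ZT p → ZT p⁻¹ := by decide +kernel

theorem zt_sq : ∀ p : D, ZT p → p * p = 1 := by decide +kernel

theorem zt_commutator : ∀ p q : D, ZT (p * q * p⁻¹ * q⁻¹) := by decide +kernel

theorem sq_zt : ∀ p : D, ZT (p * p) := by decide +kernel

theorem trivial_mod : ∀ g g' : D, g * g = C → T0 g' → ZT (R⁻¹ * g) ∧ ZT (B⁻¹ * g') := by
  decide +kernel

theorem not_zt_mul : ∀ g g' : D, g * g = C → g' * g' = 1 → ¬ ZT (g * g') := by decide +kernel

theorem t0_mul : ∀ g g' h : D, g * g = C → T1 g' → T1 h → ZT h ∨ T0 g' → False := by decide +kernel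

theorem twist_k : ∀ k ζ : D, ZT ζ → k * B * k⁻¹ = C * B → k * R = R * k →
    ZT (B * (R * B) * ζ * k) ∧ k * k = C := by decide +kernel

/-- Representatives modulo the centre. -/
def rep : Fin 4 → D := ![1, R, B, R * B]

theorem rep_inj : ∀ i j : Fin 4, ZT ((rep i)⁻¹ * rep j) → i = j := by decide +kernel

/-- The centre together with the first class of reflections. -/
def E0 : Subgroup D where
  carrier := {p | ZT p ∨ T0 p}
  mul_mem' := fun {a b} ha hb =>
    (by decide +kernel : ∀ a b : D, ZT a ∨ T0 a → ZT b ∨ T0 b → ZT (a * b) ∨ T0 (a * b)) a b ha hb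
  one_mem' := Or.inl (Or.inl rfl)
  inv_mem' := fun {a} ha =>
    (by decide +kernel : ∀ a : D, ZT a ∨ T0 a → ZT a⁻¹ ∨ T0 a⁻¹) a ha

/-- The centre together with the second class of reflections. -/
def E1 : Subgroup D where
  carrier := {p | ZT p ∨ T1 p}
  mul_mem' := fun {a b} ha hb =>
    (by decide +kernel : ∀ a b : D, ZT a ∨ T1 a → ZT b ∨ T1 b → ZT (a * b) ∨ T1 (a * b)) a b ha hb
  one_mem' := Or.inl (Or.inl rfl)
  inv_mem' := fun {a} ha =>
    (by decide +kernel : ∀ a : D, ZT a ∨ T1 a → ZT a⁻¹ ∨ T1 a⁻¹) a ha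

theorem mem_E0 {p : D} : p ∈ E0 ↔ ZT p ∨ T0 p := Iff.rfl

theorem mem_E1 {p : D} : p ∈ E1 ↔ ZT p ∨ T1 p := Iff.rfl

theorem card_E0 : Nat.card E0 = 4 := by
  show Nat.card {p : D // ZT p ∨ T0 p} = 4
  rw [Nat.card_eq_fintype_card]
  decide +kernel

theorem card_E1 : Nat.card E1 = 4 := by
  show Nat.card {p : D // ZT p ∨ T1 p} = 4
  rw [Nat.card_eq_fintype_card]
  decide +kernel

theorem E_props : ∀ p : D, ∀ c : D, ZT p ∨ T0 p → ZT (c * p * c⁻¹) ∨ T0 (c * p * c⁻¹) := by
  decide +kernel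

theorem E_props' : ∀ p : D, ∀ c : D, ZT p ∨ T1 p → ZT (c * p * c⁻¹) ∨ T1 (c * p * c⁻¹) := by
  decide +kernel

/-- An embedded copy of the wreath product. -/
structure Data {S : Type u} [Group S] (P : Subgroup S) where
  f : D × D →* S
  s : S
  inj : Function.Injective f
  sw : ∀ p q, s * f (p, q) * s = f (q, p)
  s2 : s * s = 1
  notin : ∀ x, f x ≠ s
  mem : ∀ x, f x ∈ P
  smem : s ∈ P
  cover : ∀ x ∈ P, (∃ p q, x = f (p, q)) ∨ ∃ p q, x = f (p, q) * s

variable {S : Type u} [Group S]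

theorem exists_data [Finite S] {P : Subgroup S}
    (hP : ∃ T : Sylow 2 (Equiv.Perm (Fin 8)), Nonempty (↥P ≃* ↥(T : Subgroup (Equiv.Perm (Fin 8))))) :
    Nonempty (Data P) := by
  obtain ⟨T, ⟨e⟩⟩ := hP
  obtain ⟨hTc, v, u, s, r, htop⟩ := exists_gens_of_sylow T
  let g : (T : Subgroup (Equiv.Perm (Fin 8))) →* S := P.subtype.comp e.symm.toMonoidHom
  have hgi : Function.Injective g := P.subtype_injective.comp e.symm.injective
  have hgr : g.range = P := by
    ext x
    exact ⟨fun ⟨t, ht⟩ => ht ▸ (e.symm t).2, fun hx => ⟨e ⟨x, hx⟩,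
      congrArg Subtype.val (e.symm_apply_apply ⟨x, hx⟩)⟩⟩
  obtain ⟨f, hfv, hfu, hsw, hc⟩ := (r.map g).exists_hom
  have hcl : Subgroup.closure ({g v, g u, g s} : Set S) = P := by
    rw [← hgr, MonoidHom.range_eq_map, ← htop, MonoidHom.map_closure]
    simp [Set.image_insert_eq, Set.image_singleton]
  have hs : g s ∈ P := hgr ▸ ⟨s, rfl⟩
  have hmem : ∀ x, f x ∈ P := by
    have hR : f (R, 1) ∈ P := hfv ▸ hgr ▸ ⟨v, rfl⟩
    have hB : f (B, 1) ∈ P := hfu ▸ hgr ▸ ⟨u, rfl⟩
    have h1 : ∀ p, f (p, 1) ∈ P := by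
      intro p
      have hp : p ∈ Subgroup.closure ({R, B} : Set D) := closure_top ▸ Subgroup.mem_top p
      induction hp using Subgroup.closure_induction with
      | mem a ha =>
        simp only [Set.mem_insert_iff, Set.mem_singleton_iff] at ha
        rcases ha with rfl | rfl
        · exact hR
        · exact hB
      | one => exact (map_one f).symm ▸ one_mem P
      | mul a b _ _ ha hb =>
        rw [show ((a * b, 1) : D × D) = (a, 1) * (b, 1) by simp, map_mul]
        exact mul_mem ha hb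
      | inv a _ ha =>
        rw [show ((a⁻¹, 1) : D × D) = (a, 1)⁻¹ by simp, map_inv]
        exact inv_mem ha
    rintro ⟨p, q⟩
    have h2 : f (1, q) ∈ P := by rw [← hsw]; exact mul_mem (mul_mem hs (h1 q)) hs
    rw [show ((p, q) : D × D) = (p, 1) * (1, q) by simp, map_mul]
    exact mul_mem (h1 p) h2
  let F : D × D × Bool → P := fun x => ⟨span f (g s) x, by
    rcases x with ⟨p, q, i⟩
    cases i
    · exact hmem _
    · exact mul_mem (hmem _) hs⟩
  have hFs : Function.Surjective F := fun x => by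
    obtain ⟨y, hy⟩ := hc x (hcl.symm ▸ x.2)
    exact ⟨y, Subtype.ext hy⟩
  have hFi : Function.Injective F := (hFs.bijective_of_nat_card_le (le_of_eq (by
    rw [Nat.card_congr e.toEquiv, hTc]
    simp [Nat.card_prod, DihedralGroup.nat_card, DihedralGroup.card]))).1
  refine ⟨⟨f, g s, fun a b h => ?_, hsw, (r.map g).s2, fun x h => ?_, hmem, hs, fun x hx => ?_⟩⟩
  · have := @hFi (a.1, a.2, false) (b.1, b.2, false) (Subtype.ext h)
    simp only [Prod.mk.injEq, and_true] at this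
    exact Prod.ext this.1 this.2
  · have := @hFi (x.1, x.2, false) (1, 1, true) (Subtype.ext (by
      show f x = f 1 * g s
      rw [map_one, one_mul, h]))
    simp at this
  · obtain ⟨⟨p, q, i⟩, hy⟩ := hc x (hcl.symm ▸ hx)
    cases i
    · exact Or.inl ⟨p, q, hy.symm⟩
    · exact Or.inr ⟨p, q, hy.symm⟩

namespace Data

variable {P : Subgroup S} (d : Data P)

theorem hsi : d.s⁻¹ = d.s := inv_eq_of_mul_eq_one_right d.s2

theorem swc (p q : D) : d.s * d.f (p, q) = d.f (q, p) * d.s := by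
  rw [← d.sw p q, mul_assoc _ d.s d.s, d.s2, mul_one]

theorem conj_s (p q : D) : d.s * d.f (p, q) * d.s⁻¹ = d.f (q, p) := by rw [d.hsi, d.sw]

theorem fmul (p q p' q' : D) : d.f (p, q) * d.f (p', q') = d.f (p * p', q * q') :=
  (map_mul d.f (p, q) (p', q')).symm

theorem finj {p q p' q' : D} (h : d.f (p, q) = d.f (p', q')) : p = p' ∧ q = q' :=
  Prod.mk.injEq _ _ _ _ ▸ d.inj h

theorem finv (p q : D) : (d.f (p, q))⁻¹ = d.f (p⁻¹, q⁻¹) := (map_inv d.f (p, q)).symm

theorem fone : d.f (1, 1) = 1 := map_one d.f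

theorem out_ne (p q p' q' : D) : d.f (p, q) ≠ d.f (p', q') * d.s := fun h =>
  d.notin ((p', q')⁻¹ * (p, q)) (by rw [map_mul, map_inv, h, inv_mul_cancel_left])

theorem out_inj {p q p' q' : D} (h : d.f (p, q) * d.s = d.f (p', q') * d.s) : p = p' ∧ q = q' :=
  d.finj (mul_right_cancel h)

/-- The central involution. -/
def z : S := d.f (C, C)

/-- Commuting with both first and second central involutions forces membership in the base. -/
theorem base_of_commute {w : S} (hw : w ∈ P) (h : w * d.f (C, 1) = d.f (C, 1) * w) :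
    ∃ p q, w = d.f (p, q) := by
  rcases d.cover w hw with h' | ⟨p, q, rfl⟩
  · exact h'
  · rw [mul_assoc, d.swc, ← mul_assoc, d.fmul, ← mul_assoc, d.fmul] at h
    exact absurd (d.out_inj h).1 ((by decide +kernel : ∀ p : D, p * 1 ≠ C * p) p)

theorem central_P {w : S} (hw : w ∈ P) (h : ∀ y ∈ P, w * y = y * w) : w = 1 ∨ w = d.z := by
  obtain ⟨p, q, rfl⟩ := d.base_of_commute hw (h _ (d.mem _))
  have h1 := h _ d.smem
  rw [d.swc] at h1
  obtain ⟨rfl, -⟩ := d.out_inj h1
  have h2 : ∀ y, p * y = y * p := fun y => by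
    have := h _ (d.mem (y, 1))
    rw [d.fmul, d.fmul] at this
    exact (d.finj this).1
  rcases (central_iff p).1 h2 with rfl | rfl
  · exact Or.inl d.fone
  · exact Or.inr rfl

theorem z_comm {y : S} (hy : y ∈ P) : d.z * y = y * d.z := by
  have h1 : ∀ p q, d.z * d.f (p, q) = d.f (p, q) * d.z := fun p q => by
    show d.f (C, C) * _ = _
    rw [d.fmul, zt_comm C (Or.inr rfl) p, zt_comm C (Or.inr rfl) q, ← d.fmul]
    rfl
  rcases d.cover y hy with ⟨p, q, rfl⟩ | ⟨p, q, rfl⟩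
  · exact h1 p q
  · rw [← mul_assoc, h1, mul_assoc, mul_assoc]
    congr 1
    exact (d.swc C C).symm

/-- The first factor. -/
def D1 : Subgroup S := (d.f.comp (MonoidHom.inl D D)).range

/-- The second factor. -/
def D2 : Subgroup S := (d.f.comp (MonoidHom.inr D D)).range

theorem mem_D1 {x : S} : x ∈ d.D1 ↔ ∃ p, d.f (p, 1) = x := Iff.rfl

theorem mem_D2 {x : S} : x ∈ d.D2 ↔ ∃ p, d.f (1, p) = x := Iff.rfl

theorem centerTwo_D1 : CenterTwo d.D1 (d.f (C, 1)) := by
  refine ⟨⟨C, rfl⟩, fun h => ?_, ?_, ?_, ⟨_, ⟨R, rfl⟩, _, ⟨B, rfl⟩, fun h => ?_⟩⟩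
  · exact absurd (d.finj (h.trans d.fone.symm)).1 (by decide +kernel)
  · rintro _ ⟨p, rfl⟩
    show d.f (C, 1) * d.f (p, 1) = d.f (p, 1) * d.f (C, 1)
    rw [d.fmul, d.fmul, zt_comm C (Or.inr rfl) p]
  · rintro _ ⟨p, rfl⟩ h
    have h2 : ∀ y, p * y = y * p := fun y => by
      have := h _ (d.mem_D1.2 ⟨y, rfl⟩)
      change d.f (p, 1) * _ = _ * d.f (p, 1) at this
      rw [d.fmul, d.fmul] at this
      exact (d.finj this).1
    rcases (central_iff p).1 h2 with rfl | rfl
    · exact Or.inl d.fone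
    · exact Or.inr rfl
  · change d.f (R, 1) * d.f (B, 1) = d.f (B, 1) * d.f (R, 1) at h
    rw [d.fmul, d.fmul] at h
    exact absurd (d.finj h).1 (by decide +kernel)

theorem centerTwo_D2 : CenterTwo d.D2 (d.f (1, C)) := by
  refine ⟨⟨C, rfl⟩, fun h => ?_, ?_, ?_, ⟨_, ⟨R, rfl⟩, _, ⟨B, rfl⟩, fun h => ?_⟩⟩
  · exact absurd (d.finj (h.trans d.fone.symm)).2 (by decide +kernel)
  · rintro _ ⟨p, rfl⟩
    show d.f (1, C) * d.f (1, p) = d.f (1, p) * d.f (1, C)
    rw [d.fmul, d.fmul, zt_comm C (Or.inr rfl) p]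
  · rintro _ ⟨p, rfl⟩ h
    have h2 : ∀ y, p * y = y * p := fun y => by
      have := h _ (d.mem_D2.2 ⟨y, rfl⟩)
      change d.f (1, p) * _ = _ * d.f (1, p) at this
      rw [d.fmul, d.fmul] at this
      exact (d.finj this).2
    rcases (central_iff p).1 h2 with rfl | rfl
    · exact Or.inl d.fone
    · exact Or.inr rfl
  · change d.f (1, R) * d.f (1, B) = d.f (1, B) * d.f (1, R) at h
    rw [d.fmul, d.fmul] at h
    exact absurd (d.finj h).2 (by decide +kernel)

theorem centralizer_base [Finite S] (hS : IsPGroup 2 S) (hr : Cfsg.SectionalPRankLE 2 4 S)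
    {y : S} (hy : ∀ p q, y * d.f (p, q) = d.f (p, q) * y) :
    ∃ p q, y = d.f (p, q) ∧ ZT p ∧ ZT q := by
  set T := Subgroup.normalizer (d.D1 : Set S) ⊓ Subgroup.normalizer (d.D2 : Set S) with hT
  have hne : d.f (C, 1) ≠ d.f (1, C) := fun h => absurd (d.finj h).1 (by decide +kernel)
  have hc12 : ∀ a ∈ d.D1, ∀ b ∈ d.D2, a * b = b * a := by
    rintro _ ⟨p, rfl⟩ _ ⟨q, rfl⟩
    show d.f (p, 1) * d.f (1, q) = d.f (1, q) * d.f (p, 1)
    rw [d.fmul, d.fmul, one_mul, mul_one, one_mul, mul_one]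
  have h12 : d.D1 ≤ T := le_inf Subgroup.le_normalizer (Subgroup.le_normalizer_iff.2
    fun a ha b hb => by rw [hc12 a ha b hb, mul_inv_cancel_right]; exact hb)
  have h21 : d.D2 ≤ T := le_inf (Subgroup.le_normalizer_iff.2
    fun b hb a ha => by rw [← hc12 a ha b hb, mul_inv_cancel_right]; exact ha) Subgroup.le_normalizer
  have hyT : y ∈ T := by
    refine ⟨Subgroup.mem_normalizer_iff.2 fun h => ?_, Subgroup.mem_normalizer_iff.2 fun h => ?_⟩
    · constructor
      · rintro ⟨p, rfl⟩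
        exact ⟨p, by show d.f (p, 1) = y * d.f (p, 1) * y⁻¹; rw [hy, mul_inv_cancel_right]⟩
      · rintro ⟨p, hp⟩
        change d.f (p, 1) = y * h * y⁻¹ at hp
        have : h = y⁻¹ * d.f (p, 1) * y := by rw [hp]; group
        rw [this, mul_assoc, ← hy, inv_mul_cancel_left]
        exact ⟨p, rfl⟩
    · constructor
      · rintro ⟨p, rfl⟩
        exact ⟨p, by show d.f (1, p) = y * d.f (1, p) * y⁻¹; rw [hy, mul_inv_cancel_right]⟩
      · rintro ⟨p, hp⟩
        change d.f (1, p) = y * h * y⁻¹ at hp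
        have : h = y⁻¹ * d.f (1, p) * y := by rw [hp]; group
        rw [this, mul_assoc, ← hy, inv_mul_cancel_left]
        exact ⟨p, rfl⟩
  obtain ⟨-, -, h3⟩ := pair_in hS hr d.centerTwo_D1 d.centerTwo_D2 hne h12 h21
    (fun t ht x hx => (Subgroup.mem_normalizer_iff.1 ht.1 x).1 hx)
    (fun t ht x hx => (Subgroup.mem_normalizer_iff.1 ht.2 x).1 hx)
  have hle : d.D1 ⊔ d.D2 ≤ d.f.range :=
    sup_le (by rintro _ ⟨p, rfl⟩; exact ⟨_, rfl⟩) (by rintro _ ⟨p, rfl⟩; exact ⟨_, rfl⟩)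
  obtain ⟨⟨p, q⟩, rfl⟩ := hle (h3 y hyT
    (by rintro _ ⟨a, rfl⟩; exact hy a 1) (by rintro _ ⟨a, rfl⟩; exact hy 1 a))
  refine ⟨p, q, rfl, ?_, ?_⟩
  · refine (central_iff p).1 fun a => ?_
    have := hy a 1
    rw [d.fmul, d.fmul] at this
    exact (d.finj this).1
  · refine (central_iff q).1 fun a => ?_
    have := hy 1 a
    rw [d.fmul, d.fmul] at this
    exact (d.finj this).2

theorem center_eq [Finite S] (hS : IsPGroup 2 S) (hr : Cfsg.SectionalPRankLE 2 4 S) (x : S) :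
    x ∈ Subgroup.center S ↔ x = 1 ∨ x = d.z := by
  haveI : Fact (Nat.Prime 2) := ⟨Nat.prime_two⟩
  have hP : ∀ x ∈ Subgroup.center S, x = 1 ∨ x = d.z := fun x hx => by
    have hc : ∀ y, x * y = y * x := fun y => (Subgroup.mem_center_iff.1 hx y).symm
    obtain ⟨p, q, rfl, -, -⟩ := d.centralizer_base hS hr (fun p q => hc _)
    exact d.central_P (d.mem _) fun y _ => hc y
  refine ⟨hP x, ?_⟩
  rintro (rfl | rfl)
  · exact one_mem _
  · haveI : Nontrivial S :=
      ⟨⟨d.s, 1, fun h => d.notin 1 (by rw [map_one, h])⟩⟩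
    haveI : Nontrivial (Subgroup.center S) := hS.center_nontrivial
    obtain ⟨⟨w, hw⟩, hne⟩ := exists_ne (1 : Subgroup.center S)
    rcases hP w hw with e | e
    · exact absurd (Subtype.ext e) hne
    · exact e ▸ hw

theorem z_central [Finite S] (hS : IsPGroup 2 S) (hr : Cfsg.SectionalPRankLE 2 4 S) (y : S) :
    y * d.z = d.z * y :=
  Subgroup.mem_center_iff.1 ((d.center_eq hS hr d.z).2 (Or.inr rfl)) y

/-- An element inducing a map trivial modulo the centre of the base lies in the base. -/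
theorem mem_range_of_trivial [Finite S] (hS : IsPGroup 2 S) (hr : Cfsg.SectionalPRankLE 2 4 S)
    {x : S} (h1 : x * d.f (C, 1) * x⁻¹ = d.f (C, 1)) (h2 : x * d.f (1, C) * x⁻¹ = d.f (1, C))
    (hg : ∀ a : D × D, a ∈ ({(R, 1), (B, 1), (1, R), (1, B)} : Set (D × D)) →
      ∃ n : D × D, ZT n.1 ∧ ZT n.2 ∧ x * d.f a * x⁻¹ = d.f (a * n)) :
    ∃ p q, x = d.f (p, q) := by
  by_contra hx
  push Not at hx
  have hfixN : ∀ n : D × D, ZT n.1 → ZT n.2 → x * d.f n * x⁻¹ = d.f n := by
    rintro ⟨m, n⟩ hm hn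
    have hm' : x * d.f (m, 1) * x⁻¹ = d.f (m, 1) := by
      rcases hm with e | e <;> simp only at e <;> subst e
      · rw [d.fone, mul_one, mul_inv_cancel]
      · exact h1
    have hn' : x * d.f (1, n) * x⁻¹ = d.f (1, n) := by
      rcases hn with e | e <;> simp only at e <;> subst e
      · rw [d.fone, mul_one, mul_inv_cancel]
      · exact h2
    have e : d.f (m, n) = d.f (m, 1) * d.f (1, n) := by rw [d.fmul, mul_one, one_mul]
    rw [e, ← conj_mul, hm', hn']
  have hgen : Subgroup.closure ({(R, 1), (B, 1), (1, R), (1, B)} : Set (D × D)) = ⊤ := by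
    rw [eq_top_iff]
    rintro ⟨p, q⟩ -
    set K := Subgroup.closure ({(R, 1), (B, 1), (1, R), (1, B)} : Set (D × D))
    have hl : (⊤ : Subgroup D) ≤ K.comap (MonoidHom.inl D D) := by
      rw [← closure_top, Subgroup.closure_le]
      rintro a ha
      simp only [Set.mem_insert_iff, Set.mem_singleton_iff] at ha
      rcases ha with rfl | rfl <;> exact Subgroup.subset_closure (by simp)
    have hr : (⊤ : Subgroup D) ≤ K.comap (MonoidHom.inr D D) := by
      rw [← closure_top, Subgroup.closure_le]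
      rintro a ha
      simp only [Set.mem_insert_iff, Set.mem_singleton_iff] at ha
      rcases ha with rfl | rfl <;> exact Subgroup.subset_closure (by simp)
    have h1 : ((p, 1) : D × D) ∈ K := hl (Subgroup.mem_top p)
    have h2 : ((1, q) : D × D) ∈ K := hr (Subgroup.mem_top q)
    have := mul_mem h1 h2
    rwa [Prod.mk_mul_mk, mul_one, one_mul] at this
  -- the square centralizes the base
  have hx2 : ∀ a : D × D, x * x * d.f a = d.f a * (x * x) := by
    intro a
    have ha : a ∈ Subgroup.closure ({(R, 1), (B, 1), (1, R), (1, B)} : Set (D × D)) :=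
      hgen ▸ Subgroup.mem_top a
    induction ha using Subgroup.closure_induction with
    | mem a ha =>
      obtain ⟨n, hn1, hn2, hn⟩ := hg a ha
      have hnn : a * n * n = a := by
        rw [mul_assoc, show n * n = 1 from Prod.ext (zt_sq _ hn1) (zt_sq _ hn2), mul_one]
      have : x * x * d.f a * (x * x)⁻¹ = d.f a := by
        calc x * x * d.f a * (x * x)⁻¹ = x * (x * d.f a * x⁻¹) * x⁻¹ := by group
          _ = x * (d.f a * d.f n) * x⁻¹ := by rw [hn, map_mul]
          _ = (x * d.f a * x⁻¹) * (x * d.f n * x⁻¹) := conj_mul.symm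
          _ = d.f (a * n * n) := by rw [hn, hfixN n hn1 hn2, ← map_mul]
          _ = d.f a := by rw [hnn]
      exact mul_inv_eq_iff_eq_mul.1 this
    | one => rw [map_one, mul_one, one_mul]
    | mul a b _ _ ha hb =>
      rw [map_mul]
      exact (Commute.mul_right (a := x * x) ha hb).eq
    | inv a _ ha =>
      rw [map_inv]
      exact (Commute.inv_right (a := x * x) ha).eq
  obtain ⟨m, n, hmn, hm, hn⟩ := d.centralizer_base hS hr fun p q => hx2 (p, q)
  -- the elementary section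
  set H := Subgroup.centralizer ({d.f (C, 1), d.f (1, C)} : Set S) with hH
  have hmemH : ∀ {y : S}, y * d.f (C, 1) = d.f (C, 1) * y → y * d.f (1, C) = d.f (1, C) * y →
      y ∈ H := by
    intro y a b
    rw [hH, Subgroup.mem_centralizer_iff]
    intro w hw
    simp only [Set.mem_insert_iff, Set.mem_singleton_iff] at hw
    rcases hw with rfl | rfl
    exacts [a.symm, b.symm]
  have hxH : x ∈ H := hmemH (mul_inv_eq_iff_eq_mul.1 h1) (mul_inv_eq_iff_eq_mul.1 h2)
  have hfH : ∀ a, d.f a ∈ H := fun ⟨p, q⟩ => hmemH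
    (by rw [d.fmul, d.fmul, zt_comm C (Or.inr rfl) p, mul_one, one_mul])
    (by rw [d.fmul, d.fmul, zt_comm C (Or.inr rfl) q, mul_one, one_mul])
  let F : D × D →* H := d.f.codRestrict H hfH
  set N : Subgroup H := Subgroup.closure (F '' {a | ZT a.1 ∧ ZT a.2}) with hN
  have hNc : ∀ y ∈ N, ∀ h : H, h * y = y * h := by
    intro y hy
    induction hy using Subgroup.closure_induction with
    | mem y hy =>
      obtain ⟨⟨a, b⟩, ⟨ha, hb⟩, rfl⟩ := hy
      intro h
      refine Subtype.ext ?_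
      show (h : S) * d.f (a, b) = d.f (a, b) * h
      have hh := Subgroup.mem_centralizer_iff.1 h.2
      have ha' : Commute (h : S) (d.f (a, 1)) := by
        rcases ha with e | e <;> simp only at e <;> subst e
        · rw [d.fone]; exact Commute.one_right _
        · exact (hh _ (by simp)).symm
      have hb' : Commute (h : S) (d.f (1, b)) := by
        rcases hb with e | e <;> simp only at e <;> subst e
        · rw [d.fone]; exact Commute.one_right _
        · exact (hh _ (by simp)).symm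
      have e : d.f (a, b) = d.f (a, 1) * d.f (1, b) := by rw [d.fmul, mul_one, one_mul]
      rw [e]
      exact (ha'.mul_right hb').eq
    | one => intro h; rw [mul_one, one_mul]
    | mul a b _ _ ha hb =>
      intro h
      rw [← mul_assoc, ha, mul_assoc, hb, mul_assoc]
    | inv a _ ha =>
      intro h
      exact (Commute.inv_right (a := h) (ha h)).eq
  haveI : N.Normal := ⟨fun y hy g => by rw [hNc y hy g, mul_inv_cancel_right]; exact hy⟩
  have hNsub : ∀ y ∈ N, ∃ a : D × D, ZT a.1 ∧ ZT a.2 ∧ (y : S) = d.f a := by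
    intro y hy
    induction hy using Subgroup.closure_induction with
    | mem y hy => obtain ⟨a, ha, rfl⟩ := hy; exact ⟨a, ha.1, ha.2, rfl⟩
    | one => exact ⟨1, Or.inl rfl, Or.inl rfl, (map_one d.f).symm⟩
    | mul a b _ _ ha hb =>
      obtain ⟨a', p, q, ea⟩ := ha
      obtain ⟨b', p', q', eb⟩ := hb
      exact ⟨a' * b', zt_mul _ _ p p', zt_mul _ _ q q', by rw [Subgroup.coe_mul, ea, eb, map_mul]⟩
    | inv a _ ha =>
      obtain ⟨a', p, q, ea⟩ := ha
      exact ⟨a'⁻¹, zt_inv _ p, zt_inv _ q, by rw [Subgroup.coe_inv, ea, map_inv]⟩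
  set π := QuotientGroup.mk' N with hπ
  have hπN : ∀ a : D × D, ZT a.1 → ZT a.2 → π (F a) = 1 := fun a ha hb =>
    (QuotientGroup.eq_one_iff _).2 (Subgroup.subset_closure ⟨a, ⟨ha, hb⟩, rfl⟩)
  set X : H := ⟨x, hxH⟩
  have hff : ∀ a b, π (F a) * π (F b) = π (F b) * π (F a) := fun a b => by
    rw [← mul_inv_eq_iff_eq_mul, ← mul_inv_eq_one, ← map_inv, ← map_inv, ← map_inv, ← map_inv,
      ← map_mul, ← map_mul, ← map_mul, ← map_mul, ← map_mul, ← map_mul]
    exact hπN _ (zt_commutator a.1 b.1) (zt_commutator a.2 b.2)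
  have hXf : ∀ a, π X * π (F a) = π (F a) * π X := by
    intro a
    have ha : a ∈ Subgroup.closure ({(R, 1), (B, 1), (1, R), (1, B)} : Set (D × D)) :=
      hgen ▸ Subgroup.mem_top a
    induction ha using Subgroup.closure_induction with
    | mem a ha =>
      obtain ⟨n, hn1, hn2, hn⟩ := hg a ha
      have e : X * F a = F a * F n * X := Subtype.ext (by
        show x * d.f a = d.f a * d.f n * x
        rw [← map_mul, ← hn, inv_mul_cancel_right])
      rw [← map_mul, e, map_mul, map_mul, hπN n hn1 hn2, mul_one]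
    | one => rw [map_one, map_one, mul_one, one_mul]
    | mul a b _ _ ha hb =>
      rw [map_mul, map_mul]
      exact (Commute.mul_right (a := π X) ha hb).eq
    | inv a _ ha =>
      rw [map_inv, map_inv]
      exact (Commute.inv_right (a := π X) ha).eq
  have hAc : IsMulCommutative (Subgroup.closure (insert (π X) (Set.range fun a => π (F a)))) := by
    refine Subgroup.isMulCommutative_closure ?_
    rintro a (rfl | ⟨a, rfl⟩) b (rfl | ⟨b, rfl⟩)
    exacts [rfl, hXf b, (hXf a).symm, hff a b]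
  have hle := pRankLE_quotient (sectional_of_injective H.subtype H.subtype_injective hr) N
    (Subgroup.closure (insert (π X) (Set.range fun a => π (F a)))) hAc (by
      intro a ha
      induction ha using Subgroup.closure_induction with
      | mem y hy =>
        rcases hy with rfl | ⟨a, rfl⟩
        · rw [pow_two, ← map_mul]
          have e : X * X = F (m, n) := Subtype.ext hmn
          rw [e]
          exact hπN (m, n) hm hn
        · show π (F a) ^ 2 = 1
          rw [pow_two, ← map_mul, ← map_mul]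
          exact hπN _ (sq_zt _) (sq_zt _)
      | one => exact one_pow 2
      | mul a b hxa hxb h1 h2 =>
        rw [(show Commute a b from congrArg Subtype.val
          (hAc.is_comm.comm ⟨a, hxa⟩ ⟨b, hxb⟩)).mul_pow, h1, h2, one_mul]
      | inv a _ h1 => rw [inv_pow, h1, inv_one])
  let Φ : Fin 4 × Fin 4 × Bool → Subgroup.closure (insert (π X) (Set.range fun a => π (F a))) :=
    fun t => ⟨π (F (rep t.1, rep t.2.1)) * (if t.2.2 then π X else 1), mul_mem
      (Subgroup.subset_closure (Set.mem_insert_of_mem _ ⟨_, rfl⟩)) (by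
        split
        · exact Subgroup.subset_closure (Set.mem_insert _ _)
        · exact one_mem _)⟩
  have hout : ∀ a, π X ≠ π (F a) := by
    intro a e
    obtain ⟨b, -, -, eb⟩ := hNsub _ ((QuotientGroup.eq (s := N)).1 e.symm)
    refine hx (a * b).1 (a * b).2 ?_
    change (d.f a)⁻¹ * x = d.f b at eb
    rw [map_mul, ← eb, mul_inv_cancel_left]
  have hΦ : Function.Injective Φ := by
    rintro ⟨i, j, b⟩ ⟨i', j', b'⟩ h
    have h' := congrArg Subtype.val h
    simp only [Φ] at h'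
    have hb : b = b' := by
      cases b <;> cases b' <;>
        simp only [if_true, Bool.false_eq_true, if_false, mul_one] at h' ⊢
      · exact absurd (by rw [map_mul, map_inv, map_mul, map_inv, h', inv_mul_cancel_left] :
          π X = π (F ((rep i', rep j')⁻¹ * (rep i, rep j)))) (hout _)
      · exact absurd (by rw [map_mul, map_inv, map_mul, map_inv, ← h', inv_mul_cancel_left] :
          π X = π (F ((rep i, rep j)⁻¹ * (rep i', rep j')))) (hout _)
    subst hb
    have h'' : π (F (rep i, rep j)) = π (F (rep i', rep j')) := mul_right_cancel h'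
    obtain ⟨c, hc1, hc2, ec⟩ := hNsub _ ((QuotientGroup.eq (s := N)).1 h'')
    change (d.f (rep i, rep j))⁻¹ * d.f (rep i', rep j') = d.f c at ec
    rw [← map_inv, ← map_mul] at ec
    have ec' := d.inj ec
    rw [← ec'] at hc1 hc2
    rw [rep_inj _ _ hc1, rep_inj _ _ hc2]
  have h32 := Nat.card_le_card_of_injective Φ hΦ
  simp [Nat.card_prod] at h32
  norm_num at hle
  omega

/-- Fixing the first central involution inside the normalizer. -/
def Fix (x : S) : Prop :=
  x ∈ Subgroup.normalizer (P : Set S) ∧ x * d.f (C, 1) * x⁻¹ = d.f (C, 1)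

theorem fix_second [Finite S] (hS : IsPGroup 2 S) (hr : Cfsg.SectionalPRankLE 2 4 S) {x : S}
    (hx : d.Fix x) : x * d.f (1, C) * x⁻¹ = d.f (1, C) := by
  have e : d.f (1, C) = d.f (C, 1) * d.z := by
    show _ = _ * d.f (C, C)
    rw [d.fmul, show C * C = (1 : D) by decide +kernel, one_mul]
  rw [e, ← conj_mul, hx.2, d.z_central hS hr x, mul_inv_cancel_right]

theorem fix_base [Finite S] {x : S} (hx : d.Fix x) (a : D × D) :
    ∃ p q, x * d.f a * x⁻¹ = d.f (p, q) := by
  refine d.base_of_commute ((Subgroup.mem_normalizer_iff.1 hx.1 _).1 (d.mem a)) ?_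
  have e : d.f a * d.f (C, 1) = d.f (C, 1) * d.f a := by
    rcases a with ⟨p, q⟩
    rw [d.fmul, d.fmul, zt_comm C (Or.inr rfl) p, mul_one, one_mul]
  calc x * d.f a * x⁻¹ * d.f (C, 1) = x * d.f a * x⁻¹ * (x * d.f (C, 1) * x⁻¹) := by rw [hx.2]
    _ = x * (d.f a * d.f (C, 1)) * x⁻¹ := by group
    _ = x * (d.f (C, 1) * d.f a) * x⁻¹ := by rw [e]
    _ = (x * d.f (C, 1) * x⁻¹) * (x * d.f a * x⁻¹) := by group
    _ = d.f (C, 1) * (x * d.f a * x⁻¹) := by rw [hx.2]

theorem fix_swap [Finite S] (hS : IsPGroup 2 S) (hr : Cfsg.SectionalPRankLE 2 4 S) {x : S}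
    (hx : d.Fix x) : d.Fix (d.s * x * d.s) := by
  have hsN : d.s ∈ Subgroup.normalizer (P : Set S) := Subgroup.le_normalizer d.smem
  refine ⟨mul_mem (mul_mem hsN hx.1) hsN, ?_⟩
  calc d.s * x * d.s * d.f (C, 1) * (d.s * x * d.s)⁻¹
      = d.s * (x * (d.s * d.f (C, 1) * d.s⁻¹) * x⁻¹) * d.s⁻¹ := by group
    _ = d.f (C, 1) := by rw [d.conj_s, d.fix_second hS hr hx, d.conj_s]

theorem images_raw [Finite S] (hS : IsPGroup 2 S) (hr : Cfsg.SectionalPRankLE 2 4 S) {x : S}
    (hx : d.Fix x) : ∃ g η g' ζ μ l ν l' : D,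
      x * d.f (R, 1) * x⁻¹ = d.f (g, η) ∧ x * d.f (B, 1) * x⁻¹ = d.f (g', ζ) ∧
      x * d.f (1, R) * x⁻¹ = d.f (μ, l) ∧ x * d.f (1, B) * x⁻¹ = d.f (ν, l') ∧
      g * g = C ∧ g' * g' = 1 ∧ g' * g * g'⁻¹ = g⁻¹ ∧
      l * l = C ∧ l' * l' = 1 ∧ l' * l * l'⁻¹ = l⁻¹ ∧ ZT η ∧ ZT ζ ∧ ZT μ ∧ ZT ν := by
  obtain ⟨g, η, hg⟩ := d.fix_base hx (R, 1)
  obtain ⟨g', ζ, hg'⟩ := d.fix_base hx (B, 1)
  obtain ⟨μ, l, hl⟩ := d.fix_base hx (1, R)
  obtain ⟨ν, l', hl'⟩ := d.fix_base hx (1, B)
  let φ : D × D →* S := (MulAut.conj x).toMonoidHom.comp d.f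
  have hm : ∀ a b : D × D, φ (a * b) = φ a * φ b := fun a b => map_mul φ a b
  have vR : φ (R, 1) = d.f (g, η) := hg
  have vB : φ (B, 1) = d.f (g', ζ) := hg'
  have vR2 : φ (1, R) = d.f (μ, l) := hl
  have vB2 : φ (1, B) = d.f (ν, l') := hl'
  have vC : φ (C, 1) = d.f (C, 1) := hx.2
  have vC2 : φ (1, C) = d.f (1, C) := d.fix_second hS hr hx
  have r1 : g * g = C := by
    have := hm (R, 1) (R, 1)
    rw [vR, d.fmul, show ((R, 1) : D × D) * (R, 1) = (C, 1) by decide +kernel, vC] at this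
    exact (d.finj this).1.symm
  have r2 : g' * g' = 1 := by
    have := hm (B, 1) (B, 1)
    rw [vB, d.fmul, show ((B, 1) : D × D) * (B, 1) = 1 by decide +kernel, map_one, ← d.fone] at this
    exact (d.finj this).1.symm
  have r3 : g' * g * g'⁻¹ = g⁻¹ := by
    have := hm ((B, 1) * (R, 1)) (B, 1)⁻¹
    rw [hm (B, 1) (R, 1), map_inv, vB, vR, d.finv, d.fmul, d.fmul,
      show ((B, 1) : D × D) * (R, 1) * (B, 1)⁻¹ = (R, 1)⁻¹ by decide +kernel, map_inv, vR,
      d.finv] at this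
    exact (d.finj this).1.symm
  have s1 : l * l = C := by
    have := hm (1, R) (1, R)
    rw [vR2, d.fmul, show ((1, R) : D × D) * (1, R) = (1, C) by decide +kernel, vC2] at this
    exact (d.finj this).2.symm
  have s2' : l' * l' = 1 := by
    have := hm (1, B) (1, B)
    rw [vB2, d.fmul, show ((1, B) : D × D) * (1, B) = 1 by decide +kernel, map_one, ← d.fone] at this
    exact (d.finj this).2.symm
  have s3 : l' * l * l'⁻¹ = l⁻¹ := by
    have := hm ((1, B) * (1, R)) (1, B)⁻¹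
    rw [hm (1, B) (1, R), map_inv, vB2, vR2, d.finv, d.fmul, d.fmul,
      show ((1, B) : D × D) * (1, R) * (1, B)⁻¹ = (1, R)⁻¹ by decide +kernel, map_inv, vR2,
      d.finv] at this
    exact (d.finj this).2.symm
  have hcm : ∀ p q : D, φ (p, 1) * φ (1, q) = φ (1, q) * φ (p, 1) := fun p q => by
    rw [← hm, ← hm, Prod.mk_mul_mk, Prod.mk_mul_mk, one_mul, mul_one, one_mul, mul_one]
  have c1 := hcm R R
  have c2 := hcm R B
  have c3 := hcm B R
  have c4 := hcm B B
  rw [vR, vR2, d.fmul, d.fmul] at c1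
  rw [vR, vB2, d.fmul, d.fmul] at c2
  rw [vB, vR2, d.fmul, d.fmul] at c3
  rw [vB, vB2, d.fmul, d.fmul] at c4
  exact ⟨g, η, g', ζ, μ, l, ν, l', hg, hg', hl, hl', r1, r2, r3, s1, s2', s3,
    central_of_commute l l' s1 s2' s3 η (d.finj c1).2 (d.finj c2).2,
    central_of_commute l l' s1 s2' s3 ζ (d.finj c3).2 (d.finj c4).2,
    central_of_commute g g' r1 r2 r3 μ (d.finj c1).1.symm (d.finj c3).1.symm,
    central_of_commute g g' r1 r2 r3 ν (d.finj c2).1.symm (d.finj c4).1.symm⟩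

/-- Both images of the first reflections in the first class means inner. -/
theorem inner_of_T0 [Finite S] (hS : IsPGroup 2 S) (hr : Cfsg.SectionalPRankLE 2 4 S) {x : S}
    (hx : d.Fix x) {g' ζ ν l' : D} (hg' : x * d.f (B, 1) * x⁻¹ = d.f (g', ζ))
    (hl' : x * d.f (1, B) * x⁻¹ = d.f (ν, l')) (t1 : T0 g') (t2 : T0 l') : x ∈ P := by
  obtain ⟨g, η, g'', ζ', μ, l, ν', l'', eg, eg', el, el', r1, -, -, s1, -, -, hη, hζ, hμ, hν⟩ :=
    d.images_raw hS hr hx
  obtain ⟨rfl, rfl⟩ := d.finj (hg'.symm.trans eg')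
  obtain ⟨rfl, rfl⟩ := d.finj (hl'.symm.trans el')
  obtain ⟨p, q, rfl⟩ := d.mem_range_of_trivial hS hr hx.2 (d.fix_second hS hr hx) (by
    intro a ha
    simp only [Set.mem_insert_iff, Set.mem_singleton_iff] at ha
    rcases ha with rfl | rfl | rfl | rfl
    · exact ⟨(R⁻¹ * g, η), (trivial_mod g g' r1 t1).1, hη, by
        rw [eg, Prod.mk_mul_mk, mul_inv_cancel_left, one_mul]⟩
    · exact ⟨(B⁻¹ * g', ζ), (trivial_mod g g' r1 t1).2, hζ, by
        rw [eg', Prod.mk_mul_mk, mul_inv_cancel_left, one_mul]⟩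
    · exact ⟨(μ, R⁻¹ * l), hμ, (trivial_mod l l' s1 t2).1, by
        rw [el, Prod.mk_mul_mk, mul_inv_cancel_left, one_mul]⟩
    · exact ⟨(ν, B⁻¹ * l'), hν, (trivial_mod l l' s1 t2).2, by
        rw [el', Prod.mk_mul_mk, mul_inv_cancel_left, one_mul]⟩)
  exact d.mem _

theorem adjust [Finite S] (hS : IsPGroup 2 S) (hr : Cfsg.SectionalPRankLE 2 4 S) {x : S}
    (hx : x ∈ Subgroup.normalizer (P : Set S)) : d.Fix x ∨ d.Fix (d.s * x) := by
  have hin := fun y (hy : y ∈ P) => (Subgroup.mem_normalizer_iff.1 hx y).1 hy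
  set w := x * d.f (C, 1) * x⁻¹ with hw
  have hcw : ∀ y ∈ P, d.f (C, 1) * y = y * d.f (C, 1) → w * (x * y * x⁻¹) = (x * y * x⁻¹) * w := by
    intro y _ e
    calc w * (x * y * x⁻¹) = x * (d.f (C, 1) * y) * x⁻¹ := by rw [hw]; group
      _ = x * (y * d.f (C, 1)) * x⁻¹ := by rw [e]
      _ = _ := by rw [hw]; group
  have hcomm : ∀ a b : S, a ∈ P → b ∈ P →
      w * (a * b * a⁻¹ * b⁻¹) = (a * b * a⁻¹ * b⁻¹) * w := by
    intro a b ha hb
    have ha' : x⁻¹ * a * x ∈ P := by
      have := (Subgroup.mem_normalizer_iff.1 hx (x⁻¹ * a * x)).2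
      exact this (by rw [show x * (x⁻¹ * a * x) * x⁻¹ = a by group]; exact ha)
    have hb' : x⁻¹ * b * x ∈ P := by
      have := (Subgroup.mem_normalizer_iff.1 hx (x⁻¹ * b * x)).2
      exact this (by rw [show x * (x⁻¹ * b * x) * x⁻¹ = b by group]; exact hb)
    obtain ⟨a', ea⟩ : ∃ t, t = x⁻¹ * a * x := ⟨_, rfl⟩
    obtain ⟨b', eb⟩ : ∃ t, t = x⁻¹ * b * x := ⟨_, rfl⟩
    rw [← ea] at ha'
    rw [← eb] at hb'
    have e : a * b * a⁻¹ * b⁻¹ = x * (a' * b' * a'⁻¹ * b'⁻¹) * x⁻¹ := by rw [ea, eb]; group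
    have hbase : ∃ p q, a' * b' * a'⁻¹ * b'⁻¹ = d.f (p, q) := by
      have fm : ∀ (p q p' q' : D) (r : S), d.f (p, q) * (d.f (p', q') * r) = d.f (p * p', q * q') * r :=
        fun p q p' q' r => by rw [← mul_assoc, d.fmul]
      have sf : ∀ (p q : D) (r : S), d.s * (d.f (p, q) * r) = d.f (q, p) * (d.s * r) :=
        fun p q r => by rw [← mul_assoc, d.swc, mul_assoc]
      have ss : ∀ r : S, d.s * (d.s * r) = r := fun r => by rw [← mul_assoc, d.s2, one_mul]
      rcases d.cover a' ha' with ⟨p, q, rfl⟩ | ⟨p, q, rfl⟩ <;>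
        rcases d.cover b' hb' with ⟨p', q', rfl⟩ | ⟨p', q', rfl⟩ <;>
        simp only [mul_inv_rev, d.hsi, d.finv, mul_assoc, d.fmul, fm, d.swc, sf, d.s2, ss, mul_one] <;>
        exact ⟨_, _, rfl⟩
    obtain ⟨p, q, hpq⟩ := hbase
    rw [e, hpq]
    refine hcw _ (d.mem _) ?_
    rw [d.fmul, d.fmul, zt_comm C (Or.inr rfl) p, one_mul, mul_one]
  have hcRB : w * d.f (C, 1) = d.f (C, 1) * w := by
    have := hcomm _ _ (d.mem (R, 1)) (d.mem (B, 1))
    rwa [d.fmul, d.finv, d.finv, d.fmul, d.fmul,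
      show ((R * B * R⁻¹ * B⁻¹ : D), ((1 : D) * 1 * 1⁻¹ * 1⁻¹)) = (C, 1) by decide +kernel] at this
  obtain ⟨m, m', hm⟩ : ∃ m m', w = d.f (m, m') := d.base_of_commute (hin _ (d.mem _)) hcRB
  have hcs : ∀ g : D, w * d.f (g, g⁻¹) = d.f (g, g⁻¹) * w := by
    intro g
    have := hcomm _ _ (d.mem (g, 1)) d.smem
    rwa [d.hsi, mul_assoc (d.f (g, 1)) d.s, mul_assoc (d.f (g, 1)), d.finv, d.sw, d.fmul,
      inv_one, mul_one, one_mul] at this
  have hR := hcs R
  have hB := hcs B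
  rw [hm, d.fmul, d.fmul] at hR hB
  have hB1 : B⁻¹ = B := by decide +kernel
  have hm1 : ZT m := zt_of_comm m (d.finj hR).1 (d.finj hB).1
  have hm2 : ZT m' := by
    refine zt_of_comm m' ?_ (hB1 ▸ (d.finj hB).2)
    have := (d.finj hR).2
    exact (Commute.inv_right_iff.1 (this : Commute m' R⁻¹)).eq
  have hne : w ≠ 1 := fun e =>
    absurd (d.finj ((conj_eq_one_iff.1 e).trans d.fone.symm)).1 (by decide +kernel)
  have hnz : w ≠ d.z := fun e => by
    have e2 : d.f (C, 1) = d.z := by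
      calc d.f (C, 1) = x⁻¹ * w * x := by rw [hw]; group
        _ = d.z := by rw [e, d.z_central hS hr x⁻¹, inv_mul_cancel_right]
    exact absurd (d.finj e2).2 (by decide +kernel)
  rw [hm] at hne hnz
  rcases hm1 with rfl | rfl <;> rcases hm2 with rfl | rfl
  · exact absurd d.fone hne
  · refine Or.inr ⟨mul_mem (Subgroup.le_normalizer d.smem) hx, ?_⟩
    calc d.s * x * d.f (C, 1) * (d.s * x)⁻¹ = d.s * w * d.s⁻¹ := by rw [hw]; group
      _ = d.f (C, 1) := by rw [hm, d.conj_s]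
  · exact Or.inl ⟨hx, hm⟩
  · exact absurd rfl hnz

/-- The two normal elementary abelian subgroups of order sixteen. -/
def V0 : Subgroup S := (E0.prod E0).map d.f

/-- The two normal elementary abelian subgroups of order sixteen. -/
def V1 : Subgroup S := (E1.prod E1).map d.f

theorem mem_V0 {p q : D} : d.f (p, q) ∈ d.V0 ↔ (ZT p ∨ T0 p) ∧ (ZT q ∨ T0 q) := by
  rw [V0, Subgroup.mem_map_iff_mem d.inj, Subgroup.mem_prod]
  rfl

theorem mem_V1 {p q : D} : d.f (p, q) ∈ d.V1 ↔ (ZT p ∨ T1 p) ∧ (ZT q ∨ T1 q) := by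
  rw [V1, Subgroup.mem_map_iff_mem d.inj, Subgroup.mem_prod]
  rfl

theorem card_V0 : Nat.card d.V0 = 16 := by
  rw [V0, Subgroup.card_map_of_injective d.inj, Nat.card_congr (Subgroup.prodEquiv E0 E0).toEquiv,
    Nat.card_prod, card_E0]

theorem card_V1 : Nat.card d.V1 = 16 := by
  rw [V1, Subgroup.card_map_of_injective d.inj, Nat.card_congr (Subgroup.prodEquiv E1 E1).toEquiv,
    Nat.card_prod, card_E1]

theorem P_le_normalizer_V0 : P ≤ Subgroup.normalizer (d.V0 : Set S) := by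
  rw [Subgroup.le_normalizer_iff]
  rintro h hh _ ⟨⟨p, q⟩, ⟨hp, hq⟩, rfl⟩
  rcases d.cover h hh with ⟨a, b, rfl⟩ | ⟨a, b, rfl⟩
  · rw [d.finv, d.fmul, d.fmul, d.mem_V0]
    exact ⟨E_props p a hp, E_props q b hq⟩
  · rw [show d.f (a, b) * d.s * d.f (p, q) * (d.f (a, b) * d.s)⁻¹ =
      d.f (a, b) * (d.s * d.f (p, q) * d.s⁻¹) * (d.f (a, b))⁻¹ by group, d.conj_s, d.finv, d.fmul,
      d.fmul, d.mem_V0]
    exact ⟨E_props q a hq, E_props p b hp⟩

theorem P_le_normalizer_V1 : P ≤ Subgroup.normalizer (d.V1 : Set S) := by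
  rw [Subgroup.le_normalizer_iff]
  rintro h hh _ ⟨⟨p, q⟩, ⟨hp, hq⟩, rfl⟩
  rcases d.cover h hh with ⟨a, b, rfl⟩ | ⟨a, b, rfl⟩
  · rw [d.finv, d.fmul, d.fmul, d.mem_V1]
    exact ⟨E_props' p a hp, E_props' q b hq⟩
  · rw [show d.f (a, b) * d.s * d.f (p, q) * (d.f (a, b) * d.s)⁻¹ =
      d.f (a, b) * (d.s * d.f (p, q) * d.s⁻¹) * (d.f (a, b))⁻¹ by group, d.conj_s, d.finv, d.fmul,
      d.fmul, d.mem_V1]
    exact ⟨E_props' q a hq, E_props' p b hp⟩

/-- Classification of normal elementary abelian subgroups of order sixteen. -/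
theorem classify [Finite S] {V : Subgroup S} (hle : V ≤ P)
    (hn : ∀ g ∈ P, ∀ v ∈ V, g * v * g⁻¹ ∈ V) (h2 : ∀ v ∈ V, v * v = 1)
    (hc : ∀ a ∈ V, ∀ b ∈ V, a * b = b * a) (hcard : Nat.card V = 16) : V = d.V0 ∨ V = d.V1 := by
  have hbase : ∀ v ∈ V, ∃ p q, v = d.f (p, q) := by
    intro v hv
    rcases d.cover v (hle hv) with h | ⟨p, q, rfl⟩
    · exact h
    · exfalso
      have h1 := mul_mem (hn _ (d.mem (R, 1)) _ hv) (inv_mem hv)
      rw [show d.f (R, 1) * (d.f (p, q) * d.s) * (d.f (R, 1))⁻¹ * (d.f (p, q) * d.s)⁻¹ =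
        d.f (R, 1) * d.f (p, q) * (d.s * (d.f (R, 1))⁻¹ * d.s⁻¹) * (d.f (p, q))⁻¹ by group,
        d.finv, d.conj_s, d.fmul, d.fmul, d.finv, d.fmul] at h1
      have h3 := h2 _ h1
      rw [d.fmul, ← d.fone] at h3
      exact absurd (d.finj h3).1
        ((by decide +kernel : ∀ p : D, R * p * 1⁻¹ * p⁻¹ * (R * p * 1⁻¹ * p⁻¹) ≠ 1) p)
  have hinv : ∀ p q, d.f (p, q) ∈ V → (ZT p ∨ T0 p ∨ T1 p) ∧ (ZT q ∨ T0 q ∨ T1 q) := by
    intro p q h
    have h3 := h2 _ h
    rw [d.fmul, ← d.fone] at h3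
    exact ⟨reflection_cases p (d.finj h3).1, reflection_cases q (d.finj h3).2⟩
  have hsym : ∀ p q, d.f (p, q) ∈ V → d.f (q, p) ∈ V := fun p q h => by
    have := hn _ d.smem _ h
    rwa [d.conj_s] at this
  by_cases h0 : ∀ p q, d.f (p, q) ∈ V → ¬ T1 p
  · refine Or.inl (Subgroup.eq_of_le_of_card_ge ?_ (by rw [hcard, d.card_V0]))
    intro v hv
    obtain ⟨p, q, rfl⟩ := hbase v hv
    rw [d.mem_V0]
    have h1 := hinv p q hv
    exact ⟨h1.1.imp_right fun h => h.resolve_right (h0 p q hv),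
      h1.2.imp_right fun h => h.resolve_right (h0 q p (hsym p q hv))⟩
  · push Not at h0
    obtain ⟨a, b, hab, ha⟩ := h0
    refine Or.inr (Subgroup.eq_of_le_of_card_ge ?_ (by rw [hcard, d.card_V1]))
    have hno : ∀ p q, d.f (p, q) ∈ V → ¬ T0 p := fun p q hv hp => by
      have := hc _ hv _ hab
      rw [d.fmul, d.fmul] at this
      exact types_not_commute p a hp ha (d.finj this).1
    intro v hv
    obtain ⟨p, q, rfl⟩ := hbase v hv
    rw [d.mem_V1]
    have h1 := hinv p q hv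
    exact ⟨h1.1.imp_right fun h => h.resolve_left (hno p q hv),
      h1.2.imp_right fun h => h.resolve_left (hno q p (hsym p q hv))⟩

theorem E_good : ∀ p q : D, (ZT p ∨ T0 p) → (ZT q ∨ T0 q) → p * p = 1 ∧ p * q = q * p := by
  decide +kernel

theorem E_good' : ∀ p q : D, (ZT p ∨ T1 p) → (ZT q ∨ T1 q) → p * p = 1 ∧ p * q = q * p := by
  decide +kernel

theorem conj_V [Finite S] {x : S} (hx : x ∈ Subgroup.normalizer (P : Set S)) {V : Subgroup S}
    (hV : V = d.V0 ∨ V = d.V1) :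
    V.map (MulAut.conj x).toMonoidHom = d.V0 ∨ V.map (MulAut.conj x).toMonoidHom = d.V1 := by
  have hin := fun y => Subgroup.mem_normalizer_iff.1 hx y
  have hVP : V ≤ P := by
    rcases hV with rfl | rfl <;> · rintro _ ⟨a, -, rfl⟩; exact d.mem _
  have hVN : P ≤ Subgroup.normalizer (V : Set S) := by
    rcases hV with rfl | rfl
    exacts [d.P_le_normalizer_V0, d.P_le_normalizer_V1]
  have hgood : ∀ a ∈ V, ∀ b ∈ V, a * a = 1 ∧ a * b = b * a := by
    rcases hV with rfl | rfl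
    · rintro _ ⟨⟨p, q⟩, ⟨hp, hq⟩, rfl⟩ _ ⟨⟨p', q'⟩, ⟨hp', hq'⟩, rfl⟩
      rw [d.fmul, d.fmul, d.fmul, (E_good p p' hp hp').1, (E_good q q' hq hq').1, d.fone,
        (E_good p p' hp hp').2, (E_good q q' hq hq').2]
      exact ⟨rfl, rfl⟩
    · rintro _ ⟨⟨p, q⟩, ⟨hp, hq⟩, rfl⟩ _ ⟨⟨p', q'⟩, ⟨hp', hq'⟩, rfl⟩
      rw [d.fmul, d.fmul, d.fmul, (E_good' p p' hp hp').1, (E_good' q q' hq hq').1, d.fone,
        (E_good' p p' hp hp').2, (E_good' q q' hq hq').2]
      exact ⟨rfl, rfl⟩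
  refine d.classify ?_ ?_ ?_ ?_ ?_
  · rintro _ ⟨a, ha, rfl⟩
    exact (hin a).1 (hVP ha)
  · rintro g hg _ ⟨a, ha, rfl⟩
    have hg' : x⁻¹ * g * x ∈ P :=
      (hin _).2 (by rw [show x * (x⁻¹ * g * x) * x⁻¹ = g by group]; exact hg)
    refine ⟨(x⁻¹ * g * x) * a * (x⁻¹ * g * x)⁻¹,
      (Subgroup.mem_normalizer_iff.1 (hVN hg') a).1 ha, ?_⟩
    show x * _ * x⁻¹ = g * (x * a * x⁻¹) * g⁻¹
    group
  · rintro _ ⟨a, ha, rfl⟩
    rw [← map_mul, (hgood a ha a ha).1, map_one]
  · rintro _ ⟨a, ha, rfl⟩ _ ⟨b, hb, rfl⟩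
    rw [← map_mul, ← map_mul, (hgood a ha b hb).2]
  · rw [Subgroup.card_map_of_injective (MulAut.conj x).injective]
    rcases hV with rfl | rfl
    exacts [d.card_V0, d.card_V1]

theorem mem_of_preserve [Finite S] (hS : IsPGroup 2 S) (hr : Cfsg.SectionalPRankLE 2 4 S) {x : S}
    (hx : x ∈ Subgroup.normalizer (P : Set S)) {V : Subgroup S} (hV : V = d.V0 ∨ V = d.V1)
    (hxV : x ∈ Subgroup.normalizer (V : Set S)) : x ∈ P := by
  have hsV : d.s ∈ Subgroup.normalizer (V : Set S) := by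
    rcases hV with rfl | rfl
    exacts [d.P_le_normalizer_V0 d.smem, d.P_le_normalizer_V1 d.smem]
  suffices h : ∀ y, d.Fix y → y ∈ Subgroup.normalizer (V : Set S) → y ∈ P by
    rcases d.adjust hS hr hx with h1 | h1
    · exact h x h1 hxV
    · have := h _ h1 (mul_mem hsV hxV)
      have e : x = d.s⁻¹ * (d.s * x) := (inv_mul_cancel_left _ _).symm
      rw [e]
      exact mul_mem (inv_mem d.smem) this
  intro y hy hyV
  have hin := fun a (ha : a ∈ V) => (Subgroup.mem_normalizer_iff.1 hyV a).1 ha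
  obtain ⟨g, η, g', ζ, μ, l, ν, l', eg, eg', el, el', r1, r2, r3, s1, s2', s3, -, -, -, -⟩ :=
    d.images_raw hS hr hy
  have hg0 := cases_rot g g' r1 r2 r3
  have hl0 := cases_rot l l' s1 s2' s3
  rcases hV with rfl | rfl
  · have a1 := hin _ (d.mem_V0 (p := B) (q := 1) |>.2 (by decide +kernel))
    have a2 := hin _ (d.mem_V0 (p := 1) (q := B) |>.2 (by decide +kernel))
    rw [eg', d.mem_V0] at a1
    rw [el', d.mem_V0] at a2
    refine d.inner_of_T0 hS hr hy eg' el' ?_ ?_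
    · exact a1.1.resolve_left fun h => hg0.elim (zt_not_type g' h).1 (zt_not_type g' h).2
    · exact a2.2.resolve_left fun h => hl0.elim (zt_not_type l' h).1 (zt_not_type l' h).2
  · have a1 := hin _ (d.mem_V1 (p := R * B) (q := 1) |>.2 (by decide +kernel))
    have a2 := hin _ (d.mem_V1 (p := 1) (q := R * B) |>.2 (by decide +kernel))
    rw [show ((R * B, (1 : D)) : D × D) = (R, 1) * (B, 1) by decide +kernel, map_mul, ← conj_mul,
      eg, eg', d.fmul, d.mem_V1] at a1
    rw [show (((1 : D), R * B) : D × D) = (1, R) * (1, B) by decide +kernel, map_mul, ← conj_mul,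
      el, el', d.fmul, d.mem_V1] at a2
    exact d.inner_of_T0 hS hr hy eg' el'
      (type_switch' g g' r1 (a1.1.resolve_left (not_zt_mul g g' r1 r2)))
      (type_switch' l l' s1 (a2.2.resolve_left (not_zt_mul l l' s1 s2')))

/-- The normalizer of either normal elementary abelian subgroup. -/
theorem normalizer_V [Finite S] (hS : IsPGroup 2 S) (hr : Cfsg.SectionalPRankLE 2 4 S)
    {V : Subgroup S} (hV : V = d.V0 ∨ V = d.V1) : Subgroup.normalizer (V : Set S) = P := by
  haveI : Fact (Nat.Prime 2) := ⟨Nat.prime_two⟩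
  have hle : P ≤ Subgroup.normalizer (V : Set S) := by
    rcases hV with rfl | rfl
    exacts [d.P_le_normalizer_V0, d.P_le_normalizer_V1]
  refine le_antisymm ?_ hle
  set M := Subgroup.normalizer (V : Set S) with hM
  haveI : Group.IsNilpotent M := (hS.to_subgroup M).isNilpotent
  by_contra hne
  have hlt : P.subgroupOf M < ⊤ := lt_top_iff_ne_top.2 fun h => hne (Subgroup.subgroupOf_eq_top.1 h)
  obtain ⟨x, hxn, hxP⟩ := SetLike.exists_of_lt (normalizerCondition_of_isNilpotent _ hlt)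
  refine hxP (d.mem_of_preserve hS hr ?_ hV x.2)
  rw [Subgroup.mem_normalizer_iff]
  intro a
  constructor
  · intro ha
    exact (Subgroup.mem_normalizer_iff.1 hxn ⟨a, hle ha⟩).1 ha
  · intro ha
    change (x : S) * a * (x : S)⁻¹ ∈ P at ha
    have ham : a ∈ M := by
      have := mul_mem (mul_mem (inv_mem x.2) (hle ha)) x.2
      rwa [show (x : S)⁻¹ * ((x : S) * a * (x : S)⁻¹) * x = a by group] at this
    exact (Subgroup.mem_normalizer_iff.1 hxn ⟨a, ham⟩).2 ha

theorem swap_V [Finite S] (hS : IsPGroup 2 S) (hr : Cfsg.SectionalPRankLE 2 4 S) {x : S}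
    (hx : x ∈ Subgroup.normalizer (P : Set S)) (hxP : x ∉ P) :
    d.V0.map (MulAut.conj x).toMonoidHom = d.V1 ∧ d.V1.map (MulAut.conj x).toMonoidHom = d.V0 := by
  have key : ∀ V, (V = d.V0 ∨ V = d.V1) → V.map (MulAut.conj x).toMonoidHom ≠ V := by
    intro V hV h
    exact hxP (d.mem_of_preserve hS hr hx hV (Subgroup.mem_normalizer_iff_map_conj_eq.2 h))
  exact ⟨(d.conj_V hx (Or.inl rfl)).resolve_left (key _ (Or.inl rfl)),
    (d.conj_V hx (Or.inr rfl)).resolve_right (key _ (Or.inr rfl))⟩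

include d in
theorem mul_mem_P [Finite S] (hS : IsPGroup 2 S) (hr : Cfsg.SectionalPRankLE 2 4 S) {x y : S}
    (hx : x ∈ Subgroup.normalizer (P : Set S)) (hxP : x ∉ P)
    (hy : y ∈ Subgroup.normalizer (P : Set S)) (hyP : y ∉ P) : x * y ∈ P := by
  rw [← d.normalizer_V hS hr (Or.inl rfl), Subgroup.mem_normalizer_iff_map_conj_eq]
  have e : (MulAut.conj (x * y)).toMonoidHom =
      (MulAut.conj x).toMonoidHom.comp (MulAut.conj y).toMonoidHom := by ext a; simp
  show d.V0.map (MulAut.conj (x * y) : MulAut S).toMonoidHom = d.V0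
  rw [show d.V0.map (MulAut.conj (x * y) : MulAut S).toMonoidHom =
    (d.V0.map (MulAut.conj y).toMonoidHom).map (MulAut.conj x).toMonoidHom by
      rw [Subgroup.map_map, e],
    (d.swap_V hS hr hy hyP).1, (d.swap_V hS hr hx hxP).2]

theorem fix_T1 [Finite S] (hS : IsPGroup 2 S) (hr : Cfsg.SectionalPRankLE 2 4 S) {x : S}
    (hx : d.Fix x) (hxP : x ∉ P) {g' ζ : D} (hg' : x * d.f (B, 1) * x⁻¹ = d.f (g', ζ)) : T1 g' := by
  obtain ⟨g, η, g'', ζ', μ, l, ν, l', eg, eg', el, el', r1, r2, r3, -⟩ := d.images_raw hS hr hx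
  obtain ⟨rfl, rfl⟩ := d.finj (hg'.symm.trans eg')
  have hm : x * d.f (B, 1) * x⁻¹ ∈ d.V0.map (MulAut.conj x).toMonoidHom :=
    ⟨d.f (B, 1), d.mem_V0.2 (by decide +kernel), rfl⟩
  rw [(d.swap_V hS hr hx.1 hxP).1, eg', d.mem_V1] at hm
  exact hm.1.resolve_left fun h => (cases_rot g g' r1 r2 r3).elim (zt_not_type g' h).1 (zt_not_type g' h).2

include d in
theorem relIndex_two [Finite S] (hS : IsPGroup 2 S) (hr : Cfsg.SectionalPRankLE 2 4 S)
    (hlt : P ≠ ⊤) : ∃ x, x ∈ Subgroup.normalizer (P : Set S) ∧ x ∉ P ∧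
      P.relIndex (Subgroup.normalizer (P : Set S)) = 2 := by
  haveI : Fact (Nat.Prime 2) := ⟨Nat.prime_two⟩
  haveI := hS.isNilpotent
  obtain ⟨x, hx, hxP⟩ := SetLike.exists_of_lt
    (normalizerCondition_of_isNilpotent P (lt_top_iff_ne_top.2 hlt))
  refine ⟨x, hx, hxP, Subgroup.relIndex_eq_two_iff.2 ⟨x, hx, fun b hb => ?_⟩⟩
  by_cases hbP : b ∈ P
  · exact Or.inr ⟨hbP, fun h => hxP ((Subgroup.mul_mem_cancel_left P hbP).1 h)⟩
  · exact Or.inl ⟨d.mul_mem_P hS hr hb hbP hx hxP, hbP⟩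

/-- A well adjusted outside element. -/
theorem exists_good [Finite S] (hS : IsPGroup 2 S) (hr : Cfsg.SectionalPRankLE 2 4 S) {x : S}
    (hx : x ∈ Subgroup.normalizer (P : Set S)) (hxP : x ∉ P) :
    ∃ y ζ k, y ∈ Subgroup.normalizer (P : Set S) ∧ y ∉ P ∧ ZT ζ ∧
      y * d.s = d.s * y ∧ y * d.f (C, 1) = d.f (C, 1) * y ∧
      y * d.f (1, C) = d.f (1, C) * y ∧ y * d.f (R, 1) = d.f (R, 1) * y ∧
      y * d.f (B, 1) = d.f (R * B, ζ) * y ∧ y * y = d.f (k, k) ∧
      ZT (B * (R * B) * ζ * k) ∧ k * k = C := by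
  have hPN : P ≤ Subgroup.normalizer (P : Set S) := Subgroup.le_normalizer
  obtain ⟨x0, hf0, hx0⟩ : ∃ x0, d.Fix x0 ∧ x0 ∉ P := by
    rcases d.adjust hS hr hx with h | h
    · exact ⟨x, h, hxP⟩
    · exact ⟨_, h, fun h' => hxP ((Subgroup.mul_mem_cancel_left P d.smem).1 h')⟩
  have fixmul : ∀ {a b : S}, d.Fix a → d.Fix b → d.Fix (a * b) := fun {a b} ha hb =>
    ⟨mul_mem ha.1 hb.1, by
      rw [show a * b * d.f (C, 1) * (a * b)⁻¹ = a * (b * d.f (C, 1) * b⁻¹) * a⁻¹ by group,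
        hb.2, ha.2]⟩
  have fixf : ∀ p q, d.Fix (d.f (p, q)) := fun p q => ⟨hPN (d.mem _), by
    rw [d.fmul, d.finv, d.fmul, mul_one, mul_inv_cancel, ← zt_comm C (Or.inr rfl) p,
      mul_inv_cancel_right]⟩
  -- commute with the swap
  obtain ⟨x1, hf1, hx1, hs1⟩ : ∃ x1, d.Fix x1 ∧ x1 ∉ P ∧ x1 * d.s = d.s * x1 := by
    rcases d.cover _ ((Subgroup.mem_normalizer_iff.1 hf0.1 _).1 d.smem) with
      ⟨p, q, hpq⟩ | ⟨p, q, hpq⟩
    · exfalso
      have e : x0 * d.s * x0⁻¹ * d.f (C, 1) = d.f (C, 1) * (x0 * d.s * x0⁻¹) := by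
        rw [hpq, d.fmul, d.fmul, zt_comm C (Or.inr rfl) p, mul_one, one_mul]
      have e2 : d.s * d.f (C, 1) = d.f (C, 1) * d.s := by
        calc d.s * d.f (C, 1) = x0⁻¹ * (x0 * d.s * x0⁻¹ * (x0 * d.f (C, 1) * x0⁻¹)) * x0 := by group
          _ = x0⁻¹ * (x0 * d.f (C, 1) * x0⁻¹ * (x0 * d.s * x0⁻¹)) * x0 := by rw [hf0.2, e]
          _ = d.f (C, 1) * d.s := by group
      rw [d.swc] at e2
      exact absurd (d.out_inj e2).1 (by decide +kernel)
    · have hpq1 : p * q = 1 := by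
        have e : d.f (p, q) * d.s * (d.f (p, q) * d.s) = 1 := by
          rw [← hpq, conj_mul, d.s2, mul_one, mul_inv_cancel]
        rw [mul_assoc (d.f (p, q)), ← mul_assoc d.s, d.sw, d.fmul, ← d.fone] at e
        exact (d.finj e).1
      obtain rfl : q = p⁻¹ := (inv_eq_of_mul_eq_one_right hpq1).symm
      refine ⟨d.f (p⁻¹, 1) * x0, fixmul (fixf _ _) hf0,
        fun h => hx0 ((Subgroup.mul_mem_cancel_left P (d.mem _)).1 h), ?_⟩
      have e : x0 * d.s = d.f (p, p⁻¹) * d.s * x0 := mul_inv_eq_iff_eq_mul.1 hpq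
      rw [mul_assoc, e, ← mul_assoc, ← mul_assoc, ← mul_assoc, d.fmul, d.swc, inv_mul_cancel, one_mul]
  obtain ⟨g, η, g', ζ, μ, l, ν, l', eg, eg', el, el', r1, r2, r3, -, -, -, hη, hζ, -, -⟩ :=
    d.images_raw hS hr hf1
  obtain ⟨k, hk1, hk2⟩ := exists_adjust g g' r1 (d.fix_T1 hS hr hf1 hx1 eg')
  set y := d.f (k, k) * x1 with hy
  have hfy : d.Fix y := fixmul (fixf _ _) hf1
  have hyP : y ∉ P := fun h => hx1 ((Subgroup.mul_mem_cancel_left P (d.mem _)).1 h)
  have hys : y * d.s = d.s * y := by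
    rw [hy, mul_assoc, hs1, ← mul_assoc, ← mul_assoc, d.swc]
  have hyR : y * d.f (R, 1) * y⁻¹ = d.f (R, η) := by
    rw [hy, show d.f (k, k) * x1 * d.f (R, 1) * (d.f (k, k) * x1)⁻¹ =
      d.f (k, k) * (x1 * d.f (R, 1) * x1⁻¹) * (d.f (k, k))⁻¹ by group, eg, d.finv, d.fmul, d.fmul,
      hk1, zt_conj k η hη]
  have hyB : y * d.f (B, 1) * y⁻¹ = d.f (R * B, ζ) := by
    rw [hy, show d.f (k, k) * x1 * d.f (B, 1) * (d.f (k, k) * x1)⁻¹ =
      d.f (k, k) * (x1 * d.f (B, 1) * x1⁻¹) * (d.f (k, k))⁻¹ by group, eg', d.finv, d.fmul, d.fmul,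
      hk2, zt_conj k ζ hζ]
  have hy2 : y * d.f (1, C) * y⁻¹ = d.f (1, C) := d.fix_second hS hr hfy
  have hyc : ∀ c, ZT c → y * d.f (1, c) * y⁻¹ = d.f (1, c) := by
    rintro c (rfl | rfl)
    · rw [d.fone, mul_one, mul_inv_cancel]
    · exact hy2
  have hsqP : y * y ∈ P := d.mul_mem_P hS hr hfy.1 hyP hfy.1 hyP
  obtain ⟨a, b, hab⟩ := d.base_of_commute hsqP (mul_inv_eq_iff_eq_mul.1 (fixmul hfy hfy).2)
  have hsab : d.s * (y * y) = y * y * d.s := by
    rw [← mul_assoc, ← hys, mul_assoc, ← hys, ← mul_assoc]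
  rw [hab, d.swc] at hsab
  obtain ⟨rfl, -⟩ := d.out_inj hsab
  have e1 : b * R * b⁻¹ = R ∧ η * η = 1 := by
    have : y * y * d.f (R, 1) * (y * y)⁻¹ = d.f (R, η * η) := by
      calc y * y * d.f (R, 1) * (y * y)⁻¹ = y * (y * d.f (R, 1) * y⁻¹) * y⁻¹ := by group
        _ = y * (d.f (R, 1) * d.f (1, η)) * y⁻¹ := by rw [hyR, d.fmul, mul_one, one_mul]
        _ = d.f (R, η * η) := by rw [← conj_mul, hyR, hyc η hη, d.fmul, mul_one]
    rw [hab, d.finv, d.fmul, d.fmul, mul_one, mul_inv_cancel] at this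
    exact ⟨(d.finj this).1, (d.finj this).2.symm⟩
  have e2 : b * B * b⁻¹ = C * B ∧ η = 1 := by
    have : y * y * d.f (B, 1) * (y * y)⁻¹ = d.f (R * (R * B), η * ζ * ζ) := by
      calc y * y * d.f (B, 1) * (y * y)⁻¹ = y * (y * d.f (B, 1) * y⁻¹) * y⁻¹ := by group
        _ = y * (d.f (R, 1) * d.f (B, 1) * d.f (1, ζ)) * y⁻¹ := by
            rw [hyB, d.fmul, d.fmul, mul_one, mul_one, one_mul]
        _ = d.f (R * (R * B), η * ζ * ζ) := by
            rw [← conj_mul, ← conj_mul, hyR, hyB, hyc ζ hζ, d.fmul, d.fmul, mul_one]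
    rw [hab, d.finv, d.fmul, d.fmul, mul_one, mul_inv_cancel, mul_assoc η, zt_sq ζ hζ, mul_one] at this
    refine ⟨(d.finj this).1.trans (by decide +kernel), (d.finj this).2.symm⟩
  obtain rfl := e2.2
  obtain ⟨t1, t2⟩ := twist_k b ζ hζ e2.1 (mul_inv_eq_iff_eq_mul.1 e1.1)
  exact ⟨y, ζ, b, hfy.1, hyP, hζ, hys, mul_inv_eq_iff_eq_mul.1 hfy.2, mul_inv_eq_iff_eq_mul.1 hy2,
    mul_inv_eq_iff_eq_mul.1 hyR, mul_inv_eq_iff_eq_mul.1 hyB, hab, t1, t2⟩

include d in
theorem card_P : Nat.card P = 128 := by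
  let F : D × D × Bool → P := fun x => ⟨span d.f d.s x, by
    rcases x with ⟨p, q, i⟩
    cases i
    · exact d.mem _
    · exact mul_mem (d.mem _) d.smem⟩
  have hF : Function.Bijective F := by
    constructor
    · rintro ⟨p, q, i⟩ ⟨p', q', j⟩ h
      have h' := congrArg Subtype.val h
      cases i <;> cases j <;> simp only [F, span, if_true, Bool.false_eq_true, if_false] at h'
      · obtain ⟨rfl, rfl⟩ := d.finj h'; rfl
      · exact absurd h' (d.out_ne _ _ _ _)
      · exact absurd h'.symm (d.out_ne _ _ _ _)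
      · obtain ⟨rfl, rfl⟩ := d.out_inj h'; rfl
    · rintro ⟨x, hx⟩
      rcases d.cover x hx with ⟨p, q, rfl⟩ | ⟨p, q, rfl⟩
      · exact ⟨(p, q, false), rfl⟩
      · exact ⟨(p, q, true), rfl⟩
  rw [← Nat.card_eq_of_bijective F hF]
  simp [Nat.card_prod, DihedralGroup.nat_card, DihedralGroup.card]

include d in
theorem quotient_iso [Finite S] (hS : IsPGroup 2 S) (hr : Cfsg.SectionalPRankLE 2 4 S)
    (hlt : P ≠ ⊤)
    [((Subgroup.center S).subgroupOf (Subgroup.normalizer (P : Set S))).Normal]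
    (T : Sylow 2 (Equiv.Perm (Fin 8))) :
    Nonempty (↥(Subgroup.normalizer (P : Set S)) ⧸
      (Subgroup.center S).subgroupOf (Subgroup.normalizer (P : Set S)) ≃*
        ↥(T : Subgroup (Equiv.Perm (Fin 8)))) := by
  obtain ⟨x0, hx0, hx0P, hidx⟩ := d.relIndex_two hS hr hlt
  obtain ⟨x, ζ, k, hxN, hxP, hζ, hxs, hxC, hxC', hxR, hxB, hxx, hk1, hk2⟩ :=
    d.exists_good hS hr hx0 hx0P
  set N := Subgroup.normalizer (P : Set S) with hN
  set Z := (Subgroup.center S).subgroupOf N with hZ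
  have hPN : P ≤ N := Subgroup.le_normalizer
  set π := QuotientGroup.mk' Z with hπ
  let X : N := ⟨x, hxN⟩
  let U : N := ⟨d.f (B, B) * d.s, hPN (mul_mem (d.mem _) d.smem)⟩
  let W : N := ⟨d.f (B, 1), hPN (d.mem _)⟩
  have hz : ∀ a b : D, ZT a → a = b → d.f (a, b) ∈ Subgroup.center S := by
    rintro a _ (rfl | rfl) rfl
    · rw [d.fone]; exact one_mem _
    · exact (d.center_eq hS hr _).2 (Or.inr rfl)
  have hone : ∀ w : N, (w : S) ∈ Subgroup.center S → π w = 1 := fun w hw =>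
    (QuotientGroup.eq_one_iff _).2 hw
  have hBB : B * B = (1 : D) := by decide +kernel
  have hxc : ∀ c, ZT c → x * d.f (1, c) = d.f (1, c) * x := by
    rintro c (rfl | rfl)
    · rw [d.fone, mul_one, one_mul]
    · exact hxC'
  have hxBB : x * d.f (B, B) = d.f (R * B * ζ, R * B * ζ) * x := by
    have h1 : x * d.f (1, B) = d.f (ζ, R * B) * x := by
      calc x * d.f (1, B) = x * (d.s * d.f (B, 1) * d.s) := by rw [d.sw]
        _ = d.s * (x * d.f (B, 1)) * d.s := by
            rw [← mul_assoc, ← mul_assoc, hxs, mul_assoc d.s x]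
        _ = d.f (ζ, R * B) * x := by
            rw [hxB, ← mul_assoc, d.swc, mul_assoc _ x d.s, hxs, mul_assoc _ d.s,
              ← mul_assoc d.s d.s, d.s2, one_mul]
    rw [show d.f (B, B) = d.f (B, 1) * d.f (1, B) by rw [d.fmul, mul_one, one_mul], ← mul_assoc,
      hxB, mul_assoc, h1, ← mul_assoc, d.fmul, zt_comm ζ hζ (R * B)]
  have hsub : (d.f (B, B) * d.s)⁻¹ = d.f (B, B) * d.s := inv_eq_of_mul_eq_one_right (by
    rw [mul_assoc (d.f (B, B)), ← mul_assoc d.s, d.sw, d.fmul, hBB, d.fone])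
  have r : Rel128 (π X) (π U) (π W) :=
    { v4 := by
        rw [← map_pow]
        refine hone _ ?_
        show x ^ 4 ∈ _
        rw [show x ^ 4 = (x * x) * (x * x) by simp [pow_succ, mul_assoc], hxx, d.fmul, hk2]
        exact hz C C (Or.inr rfl) rfl
      u2 := by
        rw [← map_mul]
        refine hone _ ?_
        show d.f (B, B) * d.s * (d.f (B, B) * d.s) ∈ _
        rw [mul_assoc (d.f (B, B)), ← mul_assoc d.s, d.sw, d.fmul, hBB]
        exact hz 1 1 (Or.inl rfl) rfl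
      s2 := by
        rw [← map_mul]
        refine hone _ ?_
        show d.f (B, 1) * d.f (B, 1) ∈ _
        rw [d.fmul, hBB, mul_one]
        exact hz 1 1 (Or.inl rfl) rfl
      uv := by
        rw [← map_inv, ← map_mul, ← map_mul, eq_inv_iff_mul_eq_one, ← map_mul]
        refine hone _ ?_
        show d.f (B, B) * d.s * x * (d.f (B, B) * d.s)⁻¹ * x ∈ _
        rw [hsub, show d.f (B, B) * d.s * x * (d.f (B, B) * d.s) * x =
          d.f (B, B) * ((d.s * x) * d.f (B, B) * (d.s * x)) by simp only [mul_assoc],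
          ← hxs, mul_assoc x d.s, d.swc, ← mul_assoc x, hxBB]
        have e : d.f (R * B * ζ, R * B * ζ) * x * d.s * (x * d.s) =
            d.f (R * B * ζ * k, R * B * ζ * k) := by
          calc d.f (R * B * ζ, R * B * ζ) * x * d.s * (x * d.s)
              = d.f (R * B * ζ, R * B * ζ) * x * (d.s * x) * d.s := by simp only [mul_assoc]
            _ = d.f (R * B * ζ, R * B * ζ) * (x * x) * (d.s * d.s) := by
                rw [← hxs]; simp only [mul_assoc]
            _ = _ := by rw [hxx, d.fmul, d.s2, mul_one]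
        rw [e, d.fmul]
        refine hz _ _ ?_ rfl
        simpa only [mul_assoc] using hk1
      cvv := by
        show π X * (π W * π X * π W) = π W * π X * π W * π X
        simp only [← map_mul]
        congr 1
        refine Subtype.ext ?_
        show x * (d.f (B, 1) * x * d.f (B, 1)) = d.f (B, 1) * x * d.f (B, 1) * x
        have e : d.f (B, 1) * x * d.f (B, 1) = d.f (B * (R * B), ζ) * x := by
          rw [mul_assoc, hxB, ← mul_assoc, d.fmul, one_mul]
        rw [e]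
        have hc : x * d.f (B * (R * B), ζ) = d.f (B * (R * B), ζ) * x := by
          have h1 : x * d.f (B * (R * B), 1) = d.f (B * (R * B), 1) * x := by
            have : d.f (B * (R * B), 1) = (d.f (R, 1))⁻¹ := by
              rw [d.finv, inv_one, show B * (R * B) = R⁻¹ by decide +kernel]
            rw [this]
            exact (Commute.inv_right (a := x) hxR).eq
          rw [show d.f (B * (R * B), ζ) = d.f (B * (R * B), 1) * d.f (1, ζ) by
            rw [d.fmul, mul_one, one_mul], ← mul_assoc, h1, mul_assoc, hxc ζ hζ, ← mul_assoc]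
        rw [← mul_assoc, hc]
      cvu := by
        show π X * (π W * π U * π W) = π W * π U * π W * π X
        simp only [← map_mul]
        congr 1
        refine Subtype.ext ?_
        show x * (d.f (B, 1) * (d.f (B, B) * d.s) * d.f (B, 1)) =
          d.f (B, 1) * (d.f (B, B) * d.s) * d.f (B, 1) * x
        have e : d.f (B, 1) * (d.f (B, B) * d.s) * d.f (B, 1) = d.s := by
          rw [← mul_assoc, d.fmul, mul_assoc, d.swc, ← mul_assoc, d.fmul, one_mul,
            hBB, one_mul, d.fone, one_mul]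
        rw [e, hxs]
      cuu := by
        show π U * (π W * π U * π W) = π W * π U * π W * π U
        simp only [← map_mul]
        congr 1
        refine Subtype.ext ?_
        show d.f (B, B) * d.s * (d.f (B, 1) * (d.f (B, B) * d.s) * d.f (B, 1)) =
          d.f (B, 1) * (d.f (B, B) * d.s) * d.f (B, 1) * (d.f (B, B) * d.s)
        have e : d.f (B, 1) * (d.f (B, B) * d.s) * d.f (B, 1) = d.s := by
          rw [← mul_assoc, d.fmul, mul_assoc, d.swc, ← mul_assoc, d.fmul, one_mul,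
            hBB, one_mul, d.fone, one_mul]
        rw [e, ← mul_assoc, d.swc] }
  have htop : Subgroup.closure ({π X, π U, π W} : Set (N ⧸ Z)) = ⊤ := by
    have hcl : Subgroup.closure ({X, U, W} : Set N) = ⊤ := by
      set K := Subgroup.closure ({X, U, W} : Set N) with hK
      set K' := K.map N.subtype with hK'
      have hXm : x ∈ K' := ⟨X, Subgroup.subset_closure (by simp), rfl⟩
      have hUm : d.f (B, B) * d.s ∈ K' := ⟨U, Subgroup.subset_closure (by simp), rfl⟩
      have hWm : d.f (B, 1) ∈ K' := ⟨W, Subgroup.subset_closure (by simp), rfl⟩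
      have hs : d.s ∈ K' := by
        have := mul_mem (mul_mem hWm hUm) hWm
        rwa [← mul_assoc, d.fmul, mul_assoc, d.swc, ← mul_assoc, d.fmul, one_mul,
            hBB, one_mul, d.fone, one_mul] at this
      have hsw : ∀ p q, d.f (p, q) ∈ K' → d.f (q, p) ∈ K' := fun p q h => by
        rw [← d.sw p q]; exact mul_mem (mul_mem hs h) hs
      have hRz : d.f (R, ζ) ∈ K' := by
        have h1 := mul_mem (mul_mem (mul_mem hXm hWm) (inv_mem hXm)) hWm
        rwa [hxB, mul_inv_cancel_right, d.fmul, mul_assoc R, hBB, mul_one, mul_one] at h1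
      have hR : d.f (R, 1) ∈ K' := by
        rcases hζ with e | e <;> subst e
        · exact hRz
        · have h1 := mul_mem hRz (hsw _ _ (mul_mem hRz hRz |> fun h => (d.fmul _ _ _ _) ▸ h))
          rw [d.fmul] at h1
          simpa only [show R * (C * C) = R by decide +kernel,
            show C * (R * R) = (1 : D) by decide +kernel] using h1
      have hb1 : ∀ p, d.f (p, 1) ∈ K' := by
        have : (⊤ : Subgroup D) ≤ K'.comap (d.f.comp (MonoidHom.inl D D)) := by
          rw [← closure_top, Subgroup.closure_le]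
          intro a ha
          simp only [Set.mem_insert_iff, Set.mem_singleton_iff] at ha
          rcases ha with rfl | rfl
          exacts [hR, hWm]
        exact fun p => this (Subgroup.mem_top p)
      have hb : ∀ p q, d.f (p, q) ∈ K' := fun p q => by
        have := mul_mem (hb1 p) (hsw _ _ (hb1 q))
        rwa [d.fmul, mul_one, one_mul] at this
      have hPK : P ≤ K' := fun y hy => by
        rcases d.cover y hy with ⟨p, q, rfl⟩ | ⟨p, q, rfl⟩
        exacts [hb p q, mul_mem (hb p q) hs]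
      rw [eq_top_iff]
      intro y _
      have hy : (y : S) ∈ K' := by
        by_cases hyP : (y : S) ∈ P
        · exact hPK hyP
        · have := d.mul_mem_P hS hr y.2 hyP hxN hxP
          have := mul_mem (hPK this) (inv_mem hXm)
          rwa [mul_inv_cancel_right] at this
      obtain ⟨y', hy', e⟩ := hy
      rwa [show y = y' from Subtype.ext e.symm]
    rw [← Subgroup.map_top_of_surjective π (QuotientGroup.mk'_surjective Z), ← hcl,
      MonoidHom.map_closure]
    simp [Set.image_insert_eq, Set.image_singleton]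
  have hc : Nat.card (N ⧸ Z) = 128 := by
    have h1 := Subgroup.card_eq_card_quotient_mul_card_subgroup Z
    have h2 : Nat.card N = 256 := by
      have h3 := Subgroup.card_mul_index (P.subgroupOf N)
      rw [Nat.card_congr (Subgroup.subgroupOfEquivOfLe hPN).toEquiv, d.card_P] at h3
      rw [show (P.subgroupOf N).index = 2 from hidx] at h3
      exact h3.symm
    have h3 : Nat.card Z = 2 := by
      rw [Nat.card_eq_two_iff' (1 : Z)]
      refine ⟨⟨⟨d.z, hPN (d.mem _)⟩, (d.center_eq hS hr _).2 (Or.inr rfl)⟩, fun e => ?_, ?_⟩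
      · have e' : d.z = 1 := congrArg (fun t : Z => ((t : N) : S)) e
        exact absurd (d.finj (e'.trans d.fone.symm)).1 (by decide +kernel)
      · intro w hw
        rcases (d.center_eq hS hr _).1 w.2 with e | e
        · exact absurd (Subtype.ext (Subtype.ext e)) hw
        · exact Subtype.ext (Subtype.ext e)
    rw [h2, h3] at h1
    omega
  obtain ⟨hTc, v', u', s', r', htop'⟩ := exists_gens_of_sylow T
  exact nonempty_mulEquiv hc hTc r htop r' htop'

end Data

end Cfsg.Agent.TwoGroups.W8
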