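import Cfsg.Agent.TwoGroups.Recognition
import Mathlib

/-!
# The wreath product of the dihedral group of order eight by a group of order two
-/

set_option autoImplicit false
set_option linter.all false

namespace Cfsg.Agent.TwoGroups.W8

universe u v

open Equiv

abbrev D := DihedralGroup 4

/-- Rotation. -/
abbrev R : D := DihedralGroup.r 1
/-- Reflection. -/
abbrev B : D := DihedralGroup.sr 0
/-- The central involution. -/
abbrev C : D := DihedralGroup.r 2

/-- Central elements. -/
abbrev ZT (g : D) : Prop := g = 1 ∨ g = C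
/-- The first class of reflections. -/
abbrev T0 (g : D) : Prop := g = B ∨ g = C * B
/-- The second class of reflections. -/
abbrev T1 (g : D) : Prop := g = R * B ∨ g = C * R * B

theorem cases_rot : ∀ g g' : D, g * g = C → g' * g' = 1 → g' * g * g'⁻¹ = g⁻¹ → T0 g' ∨ T1 g' := by
  decide +kernel

theorem central_of_commute : ∀ l l' : D, l * l = C → l' * l' = 1 → l' * l * l'⁻¹ = l⁻¹ →
    ∀ h : D, h * l = l * h → h * l' = l' * h → ZT h := by decide +kernel

theorem type_switch : ∀ g g' : D, g * g = C → T1 g' → T0 (g * g') := by decide +kernel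

theorem type_switch' : ∀ g g' : D, g * g = C → T1 (g * g') → T0 g' := by decide +kernel

theorem central_iff : ∀ g : D, (∀ y, g * y = y * g) ↔ ZT g := by decide +kernel

theorem reflection_cases : ∀ p : D, p * p = 1 → ZT p ∨ T0 p ∨ T1 p := by decide +kernel

theorem types_not_commute : ∀ p q : D, T0 p → T1 q → p * q ≠ q * p := by decide +kernel

theorem type_disjoint : ∀ p : D, T0 p → ¬ T1 p := by decide +kernel

theorem zt_not_type : ∀ p : D, ZT p → ¬ T0 p ∧ ¬ T1 p := by decide +kernel

theorem exists_adjust : ∀ g g' : D, g * g = C → T1 g' →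
    ∃ k : D, k * g * k⁻¹ = R ∧ k * g' * k⁻¹ = R * B := by decide +kernel

theorem zt_conj : ∀ k g : D, ZT g → k * g * k⁻¹ = g := by decide +kernel

theorem closure_top : Subgroup.closure ({R, B} : Set D) = ⊤ := by
  rw [eq_top_iff]
  intro g _
  have hR : R ∈ Subgroup.closure ({R, B} : Set D) := Subgroup.subset_closure (by simp)
  have hB : B ∈ Subgroup.closure ({R, B} : Set D) := Subgroup.subset_closure (by simp)
  obtain ⟨i, hi | hi⟩ := (by decide +kernel :
    ∀ g : D, ∃ i : Fin 4, g = R ^ (i : ℕ) ∨ g = B * R ^ (i : ℕ)) g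
  · rw [hi]; exact pow_mem hR _
  · rw [hi]; exact mul_mem hB (pow_mem hR _)

/-- Defining relations of the wreath product. -/
structure Rel128 {G : Type u} [Group G] (v u s : G) : Prop where
  v4 : v ^ 4 = 1
  u2 : u * u = 1
  s2 : s * s = 1
  uv : u * v * u⁻¹ = v⁻¹
  cvv : Commute v (s * v * s)
  cvu : Commute v (s * u * s)
  cuu : Commute u (s * u * s)

theorem Rel128.map {G : Type u} [Group G] {H : Type v} [Group H] {v u s : G} (r : Rel128 v u s)
    (φ : G →* H) : Rel128 (φ v) (φ u) (φ s) :=
  { v4 := by rw [← map_pow, r.v4, map_one]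
    u2 := by rw [← map_mul, r.u2, map_one]
    s2 := by rw [← map_mul, r.s2, map_one]
    uv := by rw [← map_inv, ← map_inv, ← map_mul, ← map_mul, r.uv]
    cvv := by simpa only [map_mul] using r.cvv.map φ
    cvu := by simpa only [map_mul] using r.cvu.map φ
    cuu := by simpa only [map_mul] using r.cuu.map φ }

variable {G : Type u} [Group G]

/-- The pair map followed by the swap. -/
def span (f : D × D →* G) (s : G) (x : D × D × Bool) : G :=
  if x.2.2 then f (x.1, x.2.1) * s else f (x.1, x.2.1)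

theorem Rel128.exists_hom {v u s : G} (r : Rel128 v u s) :
    ∃ f : D × D →* G, f (R, 1) = v ∧ f (B, 1) = u ∧ (∀ p q : D, s * f (p, q) * s = f (q, p)) ∧
      ∀ x ∈ Subgroup.closure ({v, u, s} : Set G), ∃ y, span f s y = x := by
  let φ : D →* G := dihedralLift v u r.v4 r.u2 r.uv
  have hsi : s⁻¹ = s := inv_eq_of_mul_eq_one_right r.s2
  have hφR : φ R = v := by
    have := dihedralLift_r v u r.v4 r.u2 r.uv 1
    rw [zpow_one, Int.cast_one] at this
    exact this
  have hφB : φ B = u := by
    have := dihedralLift_sr v u r.v4 r.u2 r.uv 0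
    rw [zpow_zero, mul_one, Int.cast_zero] at this
    exact this
  let ψ : D →* G := (MulAut.conj s).toMonoidHom.comp φ
  have hψ : ∀ p, ψ p = s * φ p * s := fun p => by
    show s * φ p * s⁻¹ = _
    rw [hsi]
  have hcuv : Commute u (s * v * s) := by
    have h := r.cvu.map (MulAut.conj s).toMonoidHom
    simp only [MulEquiv.coe_toMonoidHom, MulAut.conj_apply, hsi] at h
    rw [show s * (s * u * s) * s = (s * s) * u * (s * s) by simp only [mul_assoc], r.s2, one_mul,
      mul_one] at h
    exact h.symm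
  have key : ∀ p q, Commute (φ p) (ψ q) := by
    have h1 : ∀ y, Commute v (ψ y) → ∀ p, Commute u (ψ y) → Commute (φ p) (ψ y) := by
      intro y hv p hu
      have hp : p ∈ Subgroup.closure ({R, B} : Set D) := closure_top ▸ Subgroup.mem_top p
      induction hp using Subgroup.closure_induction with
      | mem a ha =>
        simp only [Set.mem_insert_iff, Set.mem_singleton_iff] at ha
        rcases ha with rfl | rfl
        · rw [hφR]; exact hv
        · rw [hφB]; exact hu
      | one => rw [map_one]; exact Commute.one_left _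
      | mul a b _ _ ha hb => rw [map_mul]; exact ha.mul_left hb
      | inv a _ ha => rw [map_inv]; exact ha.inv_left
    have h2 : ∀ q, Commute v (ψ q) ∧ Commute u (ψ q) := by
      intro q
      have hq : q ∈ Subgroup.closure ({R, B} : Set D) := closure_top ▸ Subgroup.mem_top q
      induction hq using Subgroup.closure_induction with
      | mem a ha =>
        simp only [Set.mem_insert_iff, Set.mem_singleton_iff] at ha
        rcases ha with rfl | rfl
        · rw [hψ, hφR]; exact ⟨r.cvv, hcuv⟩
        · rw [hψ, hφB]; exact ⟨r.cvu, r.cuu⟩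
      | one => rw [map_one]; exact ⟨Commute.one_right _, Commute.one_right _⟩
      | mul a b _ _ ha hb => rw [map_mul]; exact ⟨ha.1.mul_right hb.1, ha.2.mul_right hb.2⟩
      | inv a _ ha => rw [map_inv]; exact ⟨ha.1.inv_right, ha.2.inv_right⟩
    exact fun p q => h1 q (h2 q).1 p (h2 q).2
  let f : D × D →* G := MonoidHom.noncommCoprod φ ψ key
  have hf : ∀ p q, f (p, q) = φ p * ψ q := fun p q => rfl
  have hsw : ∀ p q : D, s * f (p, q) * s = f (q, p) := by
    intro p q
    have hss : s * s = 1 := r.s2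
    have e : s * f (p, q) * s = (s * φ p * s) * (s * ψ q * s) := by
      rw [hf, show s * φ p * s * (s * ψ q * s) = s * φ p * (s * s) * ψ q * s by
        simp only [mul_assoc], hss, mul_one]
      simp only [mul_assoc]
    rw [e, ← hψ, hψ q, show s * (s * φ q * s) * s = (s * s) * φ q * (s * s) by simp only [mul_assoc],
      hss, one_mul, mul_one, hf]
    exact (key q p).eq.symm
  refine ⟨f, by rw [hf, map_one, mul_one, hφR], by rw [hf, map_one, mul_one, hφB], hsw, ?_⟩
  have hsf : ∀ p q, s * f (p, q) = f (q, p) * s := fun p q => by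
    rw [← hsw p q, mul_assoc _ s s, r.s2, mul_one]
  intro x hx
  induction hx using Subgroup.closure_induction with
  | mem a ha =>
    simp only [Set.mem_insert_iff, Set.mem_singleton_iff] at ha
    rcases ha with rfl | rfl | rfl
    · exact ⟨(R, 1, false), by
        show f (R, 1) = _
        rw [hf, map_one, mul_one, hφR]⟩
    · exact ⟨(B, 1, false), by
        show f (B, 1) = _
        rw [hf, map_one, mul_one, hφB]⟩
    · exact ⟨(1, 1, true), by
        show f 1 * _ = _
        rw [map_one, one_mul]⟩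
  | one => exact ⟨(1, 1, false), map_one f⟩
  | mul a b _ _ ha hb =>
    obtain ⟨⟨p, q, i⟩, rfl⟩ := ha
    obtain ⟨⟨p', q', j⟩, rfl⟩ := hb
    cases i <;> cases j
    · exact ⟨(p * p', q * q', false), map_mul f (p, q) (p', q')⟩
    · refine ⟨(p * p', q * q', true), ?_⟩
      show f ((p, q) * (p', q')) * s = f (p, q) * (f (p', q') * s)
      rw [map_mul, mul_assoc]
    · refine ⟨(p * q', q * p', true), ?_⟩
      show f ((p, q) * (q', p')) * s = f (p, q) * s * f (p', q')
      rw [mul_assoc (f (p, q)) s, hsf, map_mul, mul_assoc]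
    · refine ⟨(p * q', q * p', false), ?_⟩
      show f ((p, q) * (q', p')) = f (p, q) * s * (f (p', q') * s)
      rw [mul_assoc (f (p, q)) s, ← mul_assoc s, hsw, map_mul]
  | inv a _ ha =>
    obtain ⟨⟨p, q, i⟩, rfl⟩ := ha
    cases i
    · exact ⟨(p⁻¹, q⁻¹, false), map_inv f (p, q)⟩
    · refine ⟨(q⁻¹, p⁻¹, true), ?_⟩
      show f (q, p)⁻¹ * s = (f (p, q) * s)⁻¹
      rw [mul_inv_rev, hsi, map_inv, ← hsw, mul_inv_rev, mul_inv_rev, hsi]
      simp only [mul_assoc, r.s2, mul_one]

theorem Rel128.card_le [Finite G] {v u s : G} (r : Rel128 v u s)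
    (htop : Subgroup.closure ({v, u, s} : Set G) = ⊤) : Nat.card G ≤ 128 := by
  obtain ⟨f, -, -, -, hc⟩ := r.exists_hom
  refine (Nat.card_le_card_of_surjective (span f s) fun x => hc x (htop ▸ Subgroup.mem_top x)).trans ?_
  simp [Nat.card_prod, DihedralGroup.nat_card, DihedralGroup.card]

/-- Two groups of order 128 generated by triples satisfying the relations are isomorphic. -/
theorem nonempty_mulEquiv [Finite G] {H : Type v} [Group H] [Finite H]
    (hG : Nat.card G = 128) (hH : Nat.card H = 128) {v u s : G} (r : Rel128 v u s)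
    (htop : Subgroup.closure ({v, u, s} : Set G) = ⊤) {v' u' s' : H} (r' : Rel128 v' u' s')
    (htop' : Subgroup.closure ({v', u', s'} : Set H) = ⊤) : Nonempty (G ≃* H) := by
  set Γ := Subgroup.closure ({(v, v'), (u, u'), (s, s')} : Set (G × H)) with hΓ
  let gv : Γ := ⟨(v, v'), Subgroup.subset_closure (by simp)⟩
  let gu : Γ := ⟨(u, u'), Subgroup.subset_closure (by simp)⟩
  let gs : Γ := ⟨(s, s'), Subgroup.subset_closure (by simp)⟩
  have rΓ : Rel128 gv gu gs :=
    { v4 := Subtype.ext (Prod.ext r.v4 r'.v4)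
      u2 := Subtype.ext (Prod.ext r.u2 r'.u2)
      s2 := Subtype.ext (Prod.ext r.s2 r'.s2)
      uv := Subtype.ext (Prod.ext r.uv r'.uv)
      cvv := Subtype.ext (Prod.ext r.cvv r'.cvv)
      cvu := Subtype.ext (Prod.ext r.cvu r'.cvu)
      cuu := Subtype.ext (Prod.ext r.cuu r'.cuu) }
  have htopΓ : Subgroup.closure ({gv, gu, gs} : Set Γ) = ⊤ := by
    apply Subgroup.map_injective Γ.subtype_injective
    rw [MonoidHom.map_closure, ← MonoidHom.range_eq_map, Subgroup.range_subtype]
    show Subgroup.closure _ = Subgroup.closure _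
    simp [Set.image_insert_eq, Set.image_singleton, gv, gu, gs]
  have h128 := rΓ.card_le htopΓ
  have hs1 : Function.Surjective ((MonoidHom.fst G H).comp Γ.subtype) := by
    rw [← MonoidHom.range_eq_top, ← top_le_iff, ← htop, Subgroup.closure_le]
    intro a ha
    simp only [Set.mem_insert_iff, Set.mem_singleton_iff] at ha
    rcases ha with rfl | rfl | rfl
    exacts [⟨gv, rfl⟩, ⟨gu, rfl⟩, ⟨gs, rfl⟩]
  have hs2 : Function.Surjective ((MonoidHom.snd G H).comp Γ.subtype) := by
    rw [← MonoidHom.range_eq_top, ← top_le_iff, ← htop', Subgroup.closure_le]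
    intro a ha
    simp only [Set.mem_insert_iff, Set.mem_singleton_iff] at ha
    rcases ha with rfl | rfl | rfl
    exacts [⟨gv, rfl⟩, ⟨gu, rfl⟩, ⟨gs, rfl⟩]
  let p1 := MulEquiv.ofBijective _ (hs1.bijective_of_nat_card_le (hG.symm ▸ h128))
  let p2 := MulEquiv.ofBijective _ (hs2.bijective_of_nat_card_le (hH.symm ▸ h128))
  exact ⟨p1.symm.trans p2⟩

/-! ### The model in the symmetric group of degree eight -/

/-- The four-cycle. -/
def v0 : Perm (Fin 8) := swap 0 1 * swap 1 2 * swap 2 3
/-- The reflection. -/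
def u0 : Perm (Fin 8) := swap 1 3
/-- The swap of the two blocks. -/
def s0 : Perm (Fin 8) := swap 0 4 * swap 1 5 * swap 2 6 * swap 3 7

theorem rel0 : Rel128 v0 u0 s0 :=
  { v4 := by decide +kernel
    u2 := by decide +kernel
    s2 := by decide +kernel
    uv := by decide +kernel
    cvv := by show v0 * _ = _ * v0; decide +kernel
    cvu := by show v0 * _ = _ * v0; decide +kernel
    cuu := by show u0 * _ = _ * u0; decide +kernel }

/-- Explicit values of the pair map in the model. -/
def g0 : D → Perm (Fin 8)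
  | DihedralGroup.r i => v0 ^ i.val
  | DihedralGroup.sr i => u0 * v0 ^ i.val

theorem g0_inj : ∀ p q : D, g0 p * (s0 * g0 q * s0) = 1 → p = 1 ∧ q = 1 := by decide +kernel

theorem g0_block : ∀ p q : D, (g0 p * (s0 * g0 q * s0)) 0 ≠ s0 0 := by decide +kernel

theorem g0_R : g0 R = v0 := by decide +kernel

theorem g0_B : g0 B = u0 := by decide +kernel

theorem g0_mul : ∀ p q : D, g0 (p * q) = g0 p * g0 q := by decide +kernel

theorem card_model : Nat.card (Subgroup.closure ({v0, u0, s0} : Set (Perm (Fin 8)))) = 128 := by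
  set K := Subgroup.closure ({v0, u0, s0} : Set (Perm (Fin 8))) with hK
  let a : K := ⟨v0, Subgroup.subset_closure (by simp)⟩
  let b : K := ⟨u0, Subgroup.subset_closure (by simp)⟩
  let c : K := ⟨s0, Subgroup.subset_closure (by simp)⟩
  have hv : v0 ∈ K := a.2
  have hu : u0 ∈ K := b.2
  have hs : s0 ∈ K := c.2
  have hg : ∀ p, g0 p ∈ K := fun p => by
    cases p with
    | r i => exact pow_mem hv _
    | sr i => exact mul_mem hu (pow_mem hv _)
  refine le_antisymm ?_ ?_
  · have hle := Rel128.card_le (G := K) (v := a) (u := b) (s := c)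
      { v4 := Subtype.ext rel0.v4
        u2 := Subtype.ext rel0.u2
        s2 := Subtype.ext rel0.s2
        uv := Subtype.ext rel0.uv
        cvv := Subtype.ext rel0.cvv
        cvu := Subtype.ext rel0.cvu
        cuu := Subtype.ext rel0.cuu } (by
      apply Subgroup.map_injective K.subtype_injective
      rw [MonoidHom.map_closure, ← MonoidHom.range_eq_map, Subgroup.range_subtype]
      show Subgroup.closure _ = Subgroup.closure _
      simp [Set.image_insert_eq, Set.image_singleton, a, b, c])
    exact hle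
  · have hss : s0 * s0 = 1 := rel0.s2
    let F : D × D × Bool → K := fun x =>
      if x.2.2 then ⟨g0 x.1 * (s0 * g0 x.2.1 * s0) * s0,
        mul_mem (mul_mem (hg _) (mul_mem (mul_mem hs (hg _)) hs)) hs⟩
      else ⟨g0 x.1 * (s0 * g0 x.2.1 * s0), mul_mem (hg _) (mul_mem (mul_mem hs (hg _)) hs)⟩
    have hc : ∀ p q, g0 p * (s0 * g0 q * s0) = (s0 * g0 q * s0) * g0 p := by decide +kernel
    have hinv : ∀ p, (g0 p)⁻¹ = g0 p⁻¹ := fun p => inv_eq_of_mul_eq_one_right (by
      rw [← g0_mul, mul_inv_cancel]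
      decide +kernel)
    have hone : ∀ p q p' q', g0 p * (s0 * g0 q * s0) = g0 p' * (s0 * g0 q' * s0) → p = p' ∧ q = q' := by
      intro p q p' q' h
      have h1 : g0 (p * p'⁻¹) * (s0 * g0 (q * q'⁻¹) * s0) = 1 := by
        rw [g0_mul, g0_mul, ← hinv, ← hinv]
        have h2 : s0 * (g0 q * (g0 q')⁻¹) * s0 = (s0 * g0 q * s0) * (s0 * g0 q' * s0)⁻¹ := by
          rw [mul_inv_rev, mul_inv_rev, inv_eq_of_mul_eq_one_right hss]
          simp only [mul_assoc]
          rw [← mul_assoc s0 s0, hss, one_mul]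
        rw [h2]
        have hc2 : (g0 p')⁻¹ * (s0 * g0 q * s0) = (s0 * g0 q * s0) * (g0 p')⁻¹ :=
          (show Commute (g0 p') (s0 * g0 q * s0) from hc p' q).inv_left.eq
        calc g0 p * (g0 p')⁻¹ * (s0 * g0 q * s0 * (s0 * g0 q' * s0)⁻¹)
            = g0 p * ((g0 p')⁻¹ * (s0 * g0 q * s0)) * (s0 * g0 q' * s0)⁻¹ := by simp only [mul_assoc]
          _ = g0 p * (s0 * g0 q * s0) * (g0 p')⁻¹ * (s0 * g0 q' * s0)⁻¹ := by
              rw [hc2]; simp only [mul_assoc]
          _ = g0 p' * (s0 * g0 q' * s0) * (g0 p')⁻¹ * (s0 * g0 q' * s0)⁻¹ := by rw [h]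
          _ = 1 := by rw [hc p' q']; group
      obtain ⟨e1, e2⟩ := g0_inj _ _ h1
      exact ⟨mul_inv_eq_one.1 e1, mul_inv_eq_one.1 e2⟩
    have hne : ∀ p q p' q', g0 p * (s0 * g0 q * s0) ≠ g0 p' * (s0 * g0 q' * s0) * s0 := by
      intro p q p' q' h
      have h1 : g0 (p'⁻¹ * p) * (s0 * g0 (q'⁻¹ * q) * s0) = s0 := by
        rw [g0_mul, g0_mul, ← hinv, ← hinv]
        calc (g0 p')⁻¹ * g0 p * (s0 * ((g0 q')⁻¹ * g0 q) * s0)
            = (g0 p')⁻¹ * g0 p * ((s0 * g0 q' * s0)⁻¹ * (s0 * g0 q * s0)) := by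
              rw [mul_inv_rev, mul_inv_rev, inv_eq_of_mul_eq_one_right hss]
              simp only [mul_assoc]
              rw [← mul_assoc s0 s0, hss, one_mul]
          _ = (g0 p')⁻¹ * (g0 p * (s0 * g0 q' * s0)⁻¹) * (s0 * g0 q * s0) := by simp only [mul_assoc]
          _ = (g0 p')⁻¹ * ((s0 * g0 q' * s0)⁻¹ * g0 p) * (s0 * g0 q * s0) := by
              rw [(show Commute (g0 p) (s0 * g0 q' * s0) from hc p q').inv_right.eq]
          _ = (g0 p')⁻¹ * (s0 * g0 q' * s0)⁻¹ * (g0 p * (s0 * g0 q * s0)) := by simp only [mul_assoc]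
          _ = (g0 p')⁻¹ * (s0 * g0 q' * s0)⁻¹ * (g0 p' * (s0 * g0 q' * s0) * s0) := by rw [h]
          _ = s0 := by rw [hc p' q']; group
      exact g0_block _ _ (congrArg (fun e : Perm (Fin 8) => e 0) h1)
    have hF : Function.Injective F := by
      rintro ⟨p, q, i⟩ ⟨p', q', j⟩ h
      cases i <;> cases j <;> simp only [F, if_true, Bool.false_eq_true, if_false, Subtype.mk.injEq] at h
      · obtain ⟨rfl, rfl⟩ := hone _ _ _ _ h; rfl
      · exact absurd h (hne _ _ _ _)
      · exact absurd h.symm (hne _ _ _ _)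
      · obtain ⟨rfl, rfl⟩ := hone _ _ _ _ (mul_right_cancel h); rfl
    refine le_trans (le_of_eq ?_) (Nat.card_le_card_of_injective F hF)
    simp [Nat.card_prod, DihedralGroup.nat_card, DihedralGroup.card]

/-- The Sylow 2-subgroup of the symmetric group of degree eight is the model. -/
theorem exists_gens_of_sylow (T : Sylow 2 (Perm (Fin 8))) :
    Nat.card (T : Subgroup (Perm (Fin 8))) = 128 ∧ ∃ v u s : (T : Subgroup (Perm (Fin 8))),
      Rel128 v u s ∧ Subgroup.closure ({v, u, s} : Set (T : Subgroup (Perm (Fin 8)))) = ⊤ := by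
  haveI : Fact (Nat.Prime 2) := ⟨Nat.prime_two⟩
  set K := Subgroup.closure ({v0, u0, s0} : Set (Perm (Fin 8))) with hK
  have hKp : IsPGroup 2 K := IsPGroup.of_card (n := 7) (by rw [card_model]; norm_num)
  obtain ⟨Q, hQ⟩ := hKp.exists_le_sylow
  have hQc : Nat.card (Q : Subgroup (Perm (Fin 8))) = 128 := by
    have h1 := Q.card_eq_multiplicity
    rw [Nat.card_eq_fintype_card (α := Perm (Fin 8)), Fintype.card_perm, Fintype.card_fin] at h1
    have hn : (Nat.factorial 8).factorization 2 = 7 := by
      have e : Nat.factorial 8 = 2 ^ 7 * 315 := by norm_num [Nat.factorial]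
      rw [e, Nat.factorization_mul (by norm_num) (by norm_num), Finsupp.add_apply,
        Nat.Prime.factorization_pow Nat.prime_two, Finsupp.single_eq_same,
        Nat.factorization_eq_zero_of_not_dvd (by norm_num : ¬ 2 ∣ 315), add_zero]
    rw [hn] at h1
    simpa using h1
  have hKQ : K = (Q : Subgroup (Perm (Fin 8))) :=
    Subgroup.eq_of_le_of_card_ge hQ (by rw [hQc, card_model])
  let e : (Q : Subgroup (Perm (Fin 8))) ≃* (T : Subgroup (Perm (Fin 8))) := Sylow.equiv Q T
  refine ⟨by rw [← Nat.card_congr e.toEquiv]; exact hQc, ?_⟩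
  let e' : K ≃* (T : Subgroup (Perm (Fin 8))) := (MulEquiv.subgroupCongr hKQ).trans e
  let a : K := ⟨v0, Subgroup.subset_closure (by simp)⟩
  let b : K := ⟨u0, Subgroup.subset_closure (by simp)⟩
  let c : K := ⟨s0, Subgroup.subset_closure (by simp)⟩
  have r : Rel128 a b c :=
    { v4 := Subtype.ext rel0.v4
      u2 := Subtype.ext rel0.u2
      s2 := Subtype.ext rel0.s2
      uv := Subtype.ext rel0.uv
      cvv := Subtype.ext rel0.cvv
      cvu := Subtype.ext rel0.cvu
      cuu := Subtype.ext rel0.cuu }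
  have htop : Subgroup.closure ({a, b, c} : Set K) = ⊤ := by
    apply Subgroup.map_injective K.subtype_injective
    rw [MonoidHom.map_closure, ← MonoidHom.range_eq_map, Subgroup.range_subtype]
    show Subgroup.closure _ = Subgroup.closure _
    simp [Set.image_insert_eq, Set.image_singleton, a, b, c]
  refine ⟨e' a, e' b, e' c, r.map e'.toMonoidHom, ?_⟩
  rw [← Subgroup.map_top_of_surjective e'.toMonoidHom e'.surjective, ← htop, MonoidHom.map_closure]
  simp [Set.image_insert_eq, Set.image_singleton]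

end Cfsg.Agent.TwoGroups.W8
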